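import Mathlib
import Cfsg.Agent.H699.LocalAlg
import Cfsg.Agent.H608.BlockRank
import Cfsg.Agent.Blocks.BlockRank

/-!
# Dimensions of block algebras and of their centres (helper699)

* `finrank_blk`: `dim K[G] e_B = ∑ χ ∈ B, χ(1)²`;
* `finrank_zblk`: the centre of the block algebra has dimension `#B`.
-/

set_option autoImplicit false

universe u

namespace Cfsg.Agent.H699.DimBlk

open Cfsg Module Cfsg.Agent.H644 Cfsg.Agent.Blocks.Local Cfsg.Agent.Blocks.ConvCentral
open Cfsg.Agent.H699.LocalAlg

variable {G : Type u} [Group G] [Finite G] {p : ℕ} {M : Ideal AlgInt} [M.IsPrime]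

theorem finrank_blk (hM : IsPModular p M) {S : Set (IrrCharacter G)} (hS : IsUnion M S) :
    finrank (ResField M) (blk (idem M S)) = ∑ᶠ χ ∈ S, charDegree (χ : G → ℂ) ^ 2 := by
  classical
  have := Fintype.ofFinite G
  rw [← H646.RankIdem.rank_convK_idem hM hS]
  set u := idem M S with hu
  have huu : u * u = u := idem_mul_self hM hS
  let c : MonoidAlgebra (ResField M) G ≃ₗ[ResField M] (G → ResField M) :=
    { toFun := fun a g => a.coeff g
      invFun := fun f => mkA f
      left_inv := fun a => mkA_coeff a
      right_inv := fun f => rfl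
      map_add' := fun a b => by funext g; rw [MonoidAlgebra.coeff_add]; rfl
      map_smul' := fun a b => by funext g; rw [MonoidAlgebra.coeff_smul]; rfl }
  have h1 : LinearMap.range (H646.RankIdem.convK u).mulVecLin = (blk u).map c.toLinearMap := by
    ext f
    constructor
    · rintro ⟨f', rfl⟩
      refine ⟨mkA f' * u, ?_, ?_⟩
      · show _ ∈ blk u
        rw [mem_blk, mul_assoc, huu]
      · rw [Matrix.mulVecLin_apply]
        exact (H646.RankIdem.convK_mulVec u (mkA f')).symm
    · rintro ⟨x, hx, rfl⟩
      refine ⟨fun g => x.coeff g, ?_⟩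
      rw [Matrix.mulVecLin_apply, H646.RankIdem.convK_mulVec, mem_blk.1 hx]
      rfl
  show _ = finrank _ (LinearMap.range (H646.RankIdem.convK u).mulVecLin)
  rw [h1]
  exact (Submodule.equivMapOfInjective c.toLinearMap c.injective _).finrank_eq

theorem finrank_zblk_le (hM : IsPModular p M) {S : Set (IrrCharacter G)} (hS : IsUnion M S) :
    finrank (ResField M) (zblk (idem M S)) ≤ Nat.card S := by
  classical
  have := Fintype.ofFinite G
  set u := idem M S with hu
  have huu : u * u = u := idem_mul_self hM hS
  set m := finrank (ResField M) (zblk u) with hm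
  let b : Basis (Fin m) (ResField M) (zblk u) := finBasis _ _
  choose f hf hfl hfb using fun i => exists_toK (M := M) (b i).2.1
  let θ : Fin m → G → ℂ := fun i => Blocks.BlockRank.blockOp S (fun g => f i g⁻¹)
  have hθl : ∀ i g, MemLocalRing M (θ i g) := by
    intro i g
    show MemLocalRing M (∑ h, blockCoeff S h * f i (h * g)⁻¹)
    exact memLocalRing_sum fun h _ => memLocalRing_mul (memLocalRing_blockCoeff hM hS h) (hfl i _)
  have hθr : ∀ i g, redC M (θ i g) = ((b i : zblk u) : MonoidAlgebra (ResField M) G).coeff g⁻¹ := by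
    intro i g
    have h1 : ((b i : zblk u) : MonoidAlgebra (ResField M) G).coeff g⁻¹ =
        (u * ((b i : zblk u) : MonoidAlgebra (ResField M) G)).coeff g⁻¹ := by
      rw [← isCls_comm (b i).2.1, (b i).2.2]
    rw [h1, coeff_mul_eq_sum]
    show redC M (∑ h, blockCoeff S h * f i (h * g)⁻¹) = _
    rw [redC_sum fun h _ => memLocalRing_mul (memLocalRing_blockCoeff hM hS h) (hfl i _)]
    refine Fintype.sum_equiv (Equiv.refl G) _ _ fun h => ?_
    rw [redC_mul (memLocalRing_blockCoeff hM hS h) (hfl i _), Equiv.refl_apply, ← hfb i, coeff_toK]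
    show redC M (blockCoeff S h) * redC M (f i (h * g)⁻¹) =
      redC M (blockCoeff S h) * redC M (f i (h⁻¹ * g⁻¹))
    have h2 := hf i ((h * g)⁻¹) h⁻¹
    rw [← h2]
    congr 3
    group
  have hlinK : LinearIndependent (ResField M) (fun i x => redC M (θ i x)) := by
    let L : zblk u →ₗ[ResField M] (G → ResField M) :=
      { toFun := fun z x => (z : MonoidAlgebra (ResField M) G).coeff x⁻¹
        map_add' := fun a b => by
          funext g
          rw [Submodule.coe_add, MonoidAlgebra.coeff_add]; rfl
        map_smul' := fun a b => by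
          funext g
          rw [Submodule.coe_smul, MonoidAlgebra.coeff_smul]; rfl }
    have hL : LinearMap.ker L = ⊥ := by
      rw [LinearMap.ker_eq_bot']
      intro z hz
      apply Subtype.ext
      refine ext_coeff fun g => ?_
      have := congrFun hz g⁻¹
      have h3 : (z : MonoidAlgebra (ResField M) G).coeff g⁻¹⁻¹ = 0 := this
      rw [inv_inv] at h3
      exact h3
    have h4 := b.linearIndependent.map' L hL
    have h5 : (fun i x => redC M (θ i x)) = L ∘ b := by
      funext i x
      exact hθr i x
    rw [h5]
    exact h4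
  have hlinC := Blocks.BlockRank.linearIndependent_of_redC θ hθl hlinK
  have hmem : ∀ i, θ i ∈ H608.BlockRank.charSpan S := by
    intro i
    refine Blocks.BlockRank.blockOp_mem_span S ?_
    intro g h
    show f i (h * g * h⁻¹)⁻¹ = f i g⁻¹
    rw [← hf i g⁻¹ h]
    congr 1
    group
  rw [← H608.BlockRank.finrank_charSpan S]
  have h6 : LinearIndependent ℂ (fun i => (⟨θ i, hmem i⟩ : H608.BlockRank.charSpan S)) := by
    apply LinearIndependent.of_comp (H608.BlockRank.charSpan S).subtype
    exact hlinC
  have h7 := h6.fintype_card_le_finrank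
  rwa [Fintype.card_fin] at h7

theorem zblk_one_eq : finrank (ResField M) (zblk (1 : MonoidAlgebra (ResField M) G)) =
    Nat.card (IrrCharacter G) := by
  classical
  have := Fintype.ofFinite G
  have := Fintype.ofFinite (ConjClasses G)
  have h1 : Nat.card (IrrCharacter G) = Nat.card (ConjClasses G) := by
    exact Characters.Core.card_irr
  rw [h1]
  let F : zblk (1 : MonoidAlgebra (ResField M) G) ≃ₗ[ResField M] (ConjClasses G → ResField M) :=
    { toFun := fun z c => (z : MonoidAlgebra (ResField M) G).coeff (crep c)
      invFun := fun f => ⟨mkA fun g => f (ConjClasses.mk g), by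
        refine ⟨fun g h => ?_, mul_one _⟩
        rw [coeff_mkA, coeff_mkA]
        congr 1
        rw [ConjClasses.mk_eq_mk_iff_isConj]
        exact (isConj_iff.2 ⟨h, rfl⟩ : IsConj g (h * g * h⁻¹)).symm⟩
      left_inv := fun z => by
        apply Subtype.ext
        refine ext_coeff fun g => ?_
        show (z : MonoidAlgebra (ResField M) G).coeff (crep (ConjClasses.mk g)) = _
        obtain ⟨c, hc⟩ := isConj_iff.1 (isConj_crep g)
        have h2 := z.2.1 (crep (ConjClasses.mk g)) c
        rw [hc] at h2
        exact h2.symm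
      right_inv := fun f => by
        funext c
        show f (ConjClasses.mk (crep c)) = f c
        rw [mk_crep]
      map_add' := fun a b => by
        funext g
        rw [Submodule.coe_add, MonoidAlgebra.coeff_add]; rfl
      map_smul' := fun a b => by
        funext g
        rw [Submodule.coe_smul, MonoidAlgebra.coeff_smul]; rfl }
  rw [F.finrank_eq, finrank_fintype_fun_eq_card, Nat.card_eq_fintype_card]

/-- The centre of the block algebra has dimension `#B`. -/
theorem finrank_zblk (hM : IsPModular p M) {S : Set (IrrCharacter G)} (hS : IsUnion M S) :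
    finrank (ResField M) (zblk (idem M S)) = Nat.card S := by
  classical
  have := Fintype.ofFinite G
  have hfin : Finite (IrrCharacter G) := Characters.Core.finite_irr
  refine le_antisymm (finrank_zblk_le hM hS) ?_
  have hSc : IsUnion M Sᶜ := by
    intro χ hχ ψ h hψ
    exact hχ (hS ψ hψ χ (Blocks.Basic.sameBlock_symm h))
  have h1 := finrank_zblk_le hM hSc
  have h2 : idem M S + idem M Sᶜ = 1 := by
    rw [← idem_union hM hS hSc disjoint_compl_right, Set.union_compl_self, idem_univ hM]
  have h3 : finrank (ResField M) (zblk (1 : MonoidAlgebra (ResField M) G)) ≤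
      finrank (ResField M) (zblk (idem M S)) + finrank (ResField M) (zblk (idem M Sᶜ)) := by
    rw [← Submodule.finrank_sup_add_finrank_inf_eq]
    refine le_trans (Submodule.finrank_mono ?_) (Nat.le_add_right _ _)
    intro z hz
    have h4 : z = z * idem M S + z * idem M Sᶜ := by rw [← mul_add, h2, mul_one]
    rw [h4]
    exact Submodule.add_mem_sup
      ⟨isCls_mul hz.1 (isCls_idem _), by rw [mul_assoc, idem_mul_self hM hS]⟩
      ⟨isCls_mul hz.1 (isCls_idem _), by rw [mul_assoc, idem_mul_self hM hSc]⟩
  rw [zblk_one_eq] at h3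
  have h4 : Nat.card (IrrCharacter G) = Nat.card S + Nat.card ↥(Sᶜ) := by
    rw [Nat.card_congr (Equiv.Set.sumCompl S).symm, Nat.card_sum]
  omega

end Cfsg.Agent.H699.DimBlk
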