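import Mathlib
import Cfsg.Agent.H699.LocalAlg
import Cfsg.Agent.H699.DimBlk
import Cfsg.Agent.H644.Pairs
import Cfsg.Agent.H644.Maximal
import Cfsg.Agent.H649.FusBlock
import Cfsg.Agent.Blocks.Orthogonality
import Cfsg.Agent.Blocks.AvgIntegral
import Cfsg.Agent.S0968
import Cfsg.Agent.S4661

/-!
# Injectivity of the Brauer map on the centre of a block (helper699)

Let `B` be a block of `G` with abelian defect group `D` and one simple module `σ`, with
`dim B ≤ (dim σ) ^ 2 * dim Z(B)` and `k(B) = |D|`. If `tr σ y ≠ 0` for some `y` centralizing `D` then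
the inertial quotient of `B` is trivial (`exists_pair`).
-/

set_option autoImplicit false

universe u

namespace Cfsg.Agent.H699.BrInj

open Cfsg Module Cfsg.Agent.H644 Cfsg.Agent.H699.LocalAlg Cfsg.Agent.Blocks.Local

variable {p : ℕ} {M : Ideal AlgInt} [M.IsPrime] {G : Type u} [Group G] [Finite G]
  {B : Set (IrrCharacter G)} {D : Subgroup G}

/-- A central `p`-element acts faithfully on a block. -/
theorem eq_one_of_single_mul (hM : IsPModular p M) (hB : IsPBlock M B) {v : G}
    (hv : ∀ g, g * v = v * g) {k : ℕ} (hvp : v ^ p ^ k = 1)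
    (h : MonoidAlgebra.single v 1 * idem M B = idem M B) : v = 1 := by
  classical
  have hBu := isUnion_of_isPBlock hB
  have hne := idem_ne_zero hM hBu (Blocks.Basic.isPBlock_nonempty hB)
  obtain ⟨g, hg⟩ : ∃ g, (idem M B).coeff g ≠ 0 := by
    by_contra hcon
    push Not at hcon
    exact hne (ext_coeff fun g => by rw [hcon g]; rfl)
  have hreg : ∀ x : G, (idem M B).coeff x ≠ 0 → ¬ p ∣ orderOf x := by
    intro x hx hd
    apply hx
    rw [coeff_idem]
    have h1 := Blocks.Orthogonality.weak_block_orthogonality hM B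
      (fun g => memLocalRing_blockCoeff hM hBu g) (x := 1)
      (by rw [orderOf_one]; exact hM.1.not_dvd_one) hd
    have h2 : blockCoeff B x = 0 := by
      unfold blockCoeff
      rw [h1, mul_zero]
    rw [h2, redC_zero]
  have h1 : (idem M B).coeff (v * g) ≠ 0 := by
    rw [← h, MonoidAlgebra.coeff_single_mul_apply, one_mul, inv_mul_cancel_left]
    exact hg
  by_contra hv1
  apply hreg _ h1
  rw [← hv g]
  exact Blocks.AvgIntegral.dvd_orderOf_mul hM.1 (hv g) (hreg g hg) hv1 hvp

/-- The multiple of the block idempotent with a central element. -/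
theorem single_mul_mem_zblk (hM : IsPModular p M) (hB : IsPBlock M B) {v : G}
    (hv : ∀ g, g * v = v * g) : MonoidAlgebra.single v 1 * idem M B ∈ zblk (idem M B) := by
  refine ⟨isCls_mul (isCls_of_comm fun y => ?_) (isCls_idem B), ?_⟩
  · induction y using MonoidAlgebra.induction_linear with
    | zero => rw [mul_zero, zero_mul]
    | add a b ha hb => rw [mul_add, add_mul, ha, hb]
    | single g r =>
      rw [MonoidAlgebra.single_mul_single, MonoidAlgebra.single_mul_single, hv, mul_comm r]
  · rw [mul_assoc, idem_mul_self hM (isUnion_of_isPBlock hB)]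

/-- The defect group of a root of a block with abelian defect group. -/
theorem isDefectGroup_root (hM : IsPModular p M)
    (hDab : ∀ x ∈ D, ∀ y ∈ D, x * y = y * x)
    {b : Set (IrrCharacter (Subgroup.centralizer (D : Set G)))}
    (hmax : IsMaximalBrauerPair p M B D b) :
    IsDefectGroup p M b (D.subgroupOf (Subgroup.centralizer (D : Set G))) := by
  classical
  have := Fintype.ofFinite G
  have : Fact p.Prime := ⟨hM.1⟩
  obtain ⟨-, x, hx, hdef⟩ := S4661.result p M hM B D D b b hmax le_rfl hmax.1.1.2
    (subpairLE_refl _ _)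
  have hle := subpairLE_le hx
  have heq : D.map (MulAut.conj x).toMonoidHom = D := by
    refine Subgroup.eq_of_le_of_card_ge hle ?_
    rw [Subgroup.card_map_of_injective (MulAut.conj x).injective]
  have hDC : D ≤ Subgroup.centralizer (D : Set G) := by
    intro d hd
    rw [Subgroup.mem_centralizer_iff]
    intro e he
    exact hDab e he d hd
  have h1 : D ⊓ Subgroup.centralizer ((D.map (MulAut.conj x).toMonoidHom : Subgroup G) : Set G) =
      D.map (MulAut.conj x).toMonoidHom := by
    rw [heq]
    exact inf_eq_left.2 hDC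
  rw [h1] at hdef
  exact H649.isDefectGroup_conjBlock_iff x |>.1 hdef

/-- The number of irreducible characters of a root of a block with abelian defect group. -/
theorem card_root (hM : IsPModular p M)
    (hDab : ∀ x ∈ D, ∀ y ∈ D, x * y = y * x)
    {b : Set (IrrCharacter (Subgroup.centralizer (D : Set G)))}
    (hmax : IsMaximalBrauerPair p M B D b) : Nat.card b = Nat.card D := by
  classical
  have : Fact p.Prime := ⟨hM.1⟩
  have hDC : D ≤ Subgroup.centralizer (D : Set G) := by
    intro d hd
    rw [Subgroup.mem_centralizer_iff]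
    intro e he
    exact hDab e he d hd
  have hdef := isDefectGroup_root hM hDab hmax
  have hP : IsPGroup p (D.subgroupOf (Subgroup.centralizer (D : Set G))) :=
    hmax.1.1.1.comap_subtype
  have htop : D.subgroupOf (Subgroup.centralizer (D : Set G)) ⊔
      Subgroup.centralizer ((D.subgroupOf (Subgroup.centralizer (D : Set G)) : Subgroup _) :
        Set (Subgroup.centralizer (D : Set G))) = ⊤ := by
    rw [eq_top_iff]
    intro c _
    refine Subgroup.mem_sup_right ?_
    rw [Subgroup.mem_centralizer_iff]
    intro d hd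
    apply Subtype.ext
    exact Subgroup.mem_centralizer_iff.1 c.2 d (Subgroup.mem_subgroupOf.1 hd)
  obtain ⟨-, -, h3⟩ := S0968.result p M hM _ hP htop b hmax.1.1.2 hdef
  rw [h3]
  have hcomm : ∀ x y : D.subgroupOf (Subgroup.centralizer (D : Set G)), x * y = y * x := by
    intro x y
    apply Subtype.ext
    apply Subtype.ext
    exact hDab _ (Subgroup.mem_subgroupOf.1 x.2) _ (Subgroup.mem_subgroupOf.1 y.2)
  have hbij : Function.Bijective (ConjClasses.mk :
      D.subgroupOf (Subgroup.centralizer (D : Set G)) → ConjClasses _) := by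
    refine ⟨fun x y hxy => ?_, Quot.mk_surjective⟩
    rw [ConjClasses.mk_eq_mk_iff_isConj, isConj_iff] at hxy
    obtain ⟨c, hc⟩ := hxy
    rw [← hc, hcomm c x, mul_inv_cancel_right]
  rw [← Nat.card_congr (Equiv.ofBijective _ hbij)]
  exact Nat.card_congr (Subgroup.subgroupOfEquivOfLe hDC).toEquiv

/-- The Brauer map on the centre of a block, followed by the projection to a block. -/
noncomputable def brz {K : Type*} [Field K] (P : Subgroup G) (e : MonoidAlgebra K G)
    (f : MonoidAlgebra K (Subgroup.centralizer (P : Set G))) (hf : IsCls f) (hff : f * f = f) :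
    zblk e →ₗ[K] zblk f where
  toFun z := ⟨br P (z : MonoidAlgebra K G) * f, isCls_mul (isCls_br_of_isCls z.2.1) hf, by
    rw [mul_assoc, hff]⟩
  map_add' z z' := by
    apply Subtype.ext
    show br P ((z + z' : zblk e) : MonoidAlgebra K G) * f = br P (z : MonoidAlgebra K G) * f +
      br P (z' : MonoidAlgebra K G) * f
    rw [Submodule.coe_add, map_add, add_mul]
  map_smul' c z := by
    apply Subtype.ext
    show br P ((c • z : zblk e) : MonoidAlgebra K G) * f = c • (br P (z : MonoidAlgebra K G) * f)
    rw [Submodule.coe_smul, map_smul, smul_mul_assoc]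

theorem brz_apply {K : Type*} [Field K] {P : Subgroup G} {e : MonoidAlgebra K G}
    {f : MonoidAlgebra K (Subgroup.centralizer (P : Set G))} (hf : IsCls f) (hff : f * f = f)
    (z : zblk e) : ((brz P e f hf hff z : zblk f) : MonoidAlgebra K _) =
      br P (z : MonoidAlgebra K G) * f := rfl

/-- **Injectivity of the Brauer map on the centre of the block and its consequence.** -/
theorem exists_pair (hM : IsPModular p M) [IsAlgClosed (ResField M)] (hB : IsPBlock M B)
    (hD : IsDefectGroup p M B D) (hDp : IsPGroup p D) (hDab : ∀ x ∈ D, ∀ y ∈ D, x * y = y * x)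
    {n : ℕ} {σ : Representation (ResField M) G (Fin n → ResField M)}
    (hdat : Dat (idem M B) σ)
    (hdim : finrank (ResField M) (blk (idem M B)) ≤
      n ^ 2 * finrank (ResField M) (zblk (idem M B)))
    (hcard : Nat.card B = Nat.card D) {y : G}
    (hy : y ∈ Subgroup.centralizer (D : Set G))
    (hty : LinearMap.trace (ResField M) _ (σ y) ≠ 0) :
    ∃ b : Set (IrrCharacter (Subgroup.centralizer (D : Set G))),
      IsMaximalBrauerPair p M B D b ∧
      ∀ x ∈ Subgroup.normalizer (D : Set G),
        StabilizesBlock (Subgroup.centralizer (D : Set G)) b x →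
          x ∈ Subgroup.centralizer (D : Set G) := by
  classical
  have hFact : Fact p.Prime := ⟨hM.1⟩
  have hChar : CharP (ResField M) p := charP_resField hM
  have hBu := isUnion_of_isPBlock hB
  have hDC : D ≤ Subgroup.centralizer (D : Set G) := by
    intro d hd
    rw [Subgroup.mem_centralizer_iff]
    intro e he
    exact hDab e he d hd
  set e := idem M B with he
  have hee : e * e = e := idem_mul_self hM hBu
  have hecls : IsCls e := isCls_idem B
  have hene : e ≠ 0 := idem_ne_zero hM hBu (Blocks.Basic.isPBlock_nonempty hB)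
  have hinv : ∀ {x : MonoidAlgebra (ResField M) G}, IsCls x → IsInv D x :=
    fun hx => isInv_of_isCls hx D
  have hbr : ∀ {x x' : MonoidAlgebra (ResField M) G}, IsCls x → IsCls x' →
      br D (x * x') = br D x * br D x' := fun hx hx' => br_mul hDp (hinv hx) (hinv hx')
  -- the element `∑ g, tr σ(g⁻¹) g`
  have hezb : e ∈ zblk e := ⟨hecls, hee⟩
  obtain ⟨w₀, hw₀, hw₀c⟩ := hdat.main hdim (zblk e) le_rfl (fun x hx z hz => mul_mem_zblk hx hz)
    (fun h => hene ((Submodule.mem_bot _).1 (h ▸ hezb)))
  have hbw : br D w₀ ≠ 0 := by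
    intro h
    have h1 : (br D w₀).coeff ⟨y⁻¹, inv_mem hy⟩ = 0 := by rw [h]; rfl
    rw [coeff_br] at h1
    change w₀.coeff y⁻¹ = 0 at h1
    rw [hw₀c, inv_inv] at h1
    exact hty h1
  -- a block of the centralizer
  have := Fintype.ofFinite (Blk M (Subgroup.centralizer (D : Set G)))
  obtain ⟨b, hb⟩ : ∃ b : Blk M (Subgroup.centralizer (D : Set G)),
      br D w₀ * idem M b.1 ≠ 0 := by
    by_contra hcon
    push Not at hcon
    apply hbw
    rw [eq_sum_mul_idem hM (br D w₀)]
    exact Finset.sum_eq_zero fun b _ => hcon b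
  have hbP : IsPBlock M b.1 := b.2
  have hbu := isUnion_of_isPBlock hbP
  have hw₀cls : IsCls w₀ := hw₀.1
  have hbe : br D e * idem M b.1 ≠ 0 := by
    intro h
    apply hb
    have h1 : br D w₀ * br D e = br D w₀ := by rw [← hbr hw₀cls hecls, hw₀.2]
    rw [← h1, mul_assoc, h, mul_zero]
  have hbee : br D e * br D e = br D e := by rw [← hbr hecls hecls, hee]
  have hbecls : IsCls (br D e) := isCls_br_of_isCls hecls
  have hlam1 : ∀ ξ ∈ b.1, lam M (ξ : Subgroup.centralizer (D : Set G) → ℂ) (br D e) = 1 := by
    intro ξ hξ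
    rcases lam_idempotent ξ hbecls hbee with h | h
    · exfalso
      exact hbe (mul_idem_of_lam_eq_zero hM hbecls hbee hbu fun ζ hζ => by
        rw [lam_eq_of_mem hbP hζ hξ, h])
    · exact h
  have hpair : IsBrauerPairOf p M B D b.1 :=
    (isBrauerPairOf_iff hM).2 ⟨⟨hDp, hbP⟩, hB, hlam1⟩
  have hmax := isMaximalBrauerPair_of_isDefectGroup hM hpair hD
  -- the injection of the centres
  have hff : idem M b.1 * idem M b.1 = idem M b.1 := idem_mul_self hM hbu
  set Φ := brz D e (idem M b.1) (isCls_idem b.1) hff with hΦdef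
  have hΦ : ∀ z : zblk e, ((Φ z : zblk (idem M b.1)) : MonoidAlgebra (ResField M) _) =
      br D (z : MonoidAlgebra (ResField M) G) * idem M b.1 := fun z => brz_apply _ _ z
  have hinj : Function.Injective Φ := by
    rw [← LinearMap.ker_eq_bot]
    by_contra hker
    let I : Submodule (ResField M) (MonoidAlgebra (ResField M) G) :=
      (LinearMap.ker Φ).map (zblk e).subtype
    have hI : ∀ x, x ∈ I ↔ x ∈ zblk e ∧ br D x * idem M b.1 = 0 := by
      intro x
      constructor
      · rintro ⟨z, hz, rfl⟩
        refine ⟨z.2, ?_⟩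
        have h1 := congrArg (fun t : zblk (idem M b.1) =>
          (t : MonoidAlgebra (ResField M) (Subgroup.centralizer (D : Set G))))
          (LinearMap.mem_ker.1 hz)
        exact h1
      · rintro ⟨h1, h2⟩
        exact ⟨⟨x, h1⟩, LinearMap.mem_ker.2 (Subtype.ext h2), rfl⟩
    have hIne : I ≠ ⊥ := by
      intro h
      apply hker
      rw [eq_bot_iff]
      intro z hz
      have h1 : (z : MonoidAlgebra (ResField M) G) ∈ I := ⟨z, hz, rfl⟩
      rw [h, Submodule.mem_bot] at h1
      exact (Submodule.mem_bot _).2 (Subtype.ext h1)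
    obtain ⟨w, hw, hwc⟩ := hdat.main hdim I (fun x hx => ((hI x).1 hx).1)
      (fun x hx z hz => by
        obtain ⟨h1, h2⟩ := (hI x).1 hx
        refine (hI _).2 ⟨mul_mem_zblk h1 hz, ?_⟩
        rw [hbr h1.1 hz.1, mul_assoc, isCls_comm (isCls_br_of_isCls hz.1), ← mul_assoc, h2,
          zero_mul]) hIne
    have hww : w = w₀ := ext_coeff fun g => by rw [hwc, hw₀c]
    exact hb (hww ▸ ((hI w).1 hw).2)
  have hfr : finrank (ResField M) (zblk e) = finrank (ResField M) (zblk (idem M b.1)) := by
    rw [DimBlk.finrank_zblk hM hBu, DimBlk.finrank_zblk hM hbu, hcard, card_root hM hDab hmax]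
  have hsurj : Function.Surjective Φ :=
    (LinearMap.injective_iff_surjective_of_finrank_eq_finrank hfr).1 hinj
  refine ⟨b.1, hmax, fun x hx hst => ?_⟩
  obtain ⟨hxC, hxf⟩ := (stabilizesBlock_iff hM hbP x).1 hst
  -- everything in the centre of the block of the centralizer is fixed by `x`
  have hfix : ∀ z ∈ zblk (idem M b.1), cj x (emb _ z) = emb _ z := by
    intro z hz
    obtain ⟨t, ht⟩ := hsurj ⟨z, hz⟩
    have h1 : z = br D (t : MonoidAlgebra (ResField M) G) * idem M b.1 := by
      rw [← hΦ, ht]
    rw [h1, map_mul, map_mul, hxf]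
    congr 1
    refine ext_coeff fun g => ?_
    rw [coeff_cj]
    by_cases hg : g ∈ Subgroup.centralizer (D : Set G)
    · have hg' : x⁻¹ * g * x ∈ Subgroup.centralizer (D : Set G) := by
        have h2 := mem_iff_conj_mem_of_mem_normalizer hxC (x⁻¹ * g * x)
        rw [h2]
        have h3 : x * (x⁻¹ * g * x) * x⁻¹ = g := by group
        rwa [h3]
      rw [coeff_emb_of_mem _ hg, coeff_emb_of_mem _ hg', coeff_br, coeff_br]
      have h4 := t.2.1 g x⁻¹
      rw [inv_inv] at h4
      exact h4
    · have hg' : x⁻¹ * g * x ∉ Subgroup.centralizer (D : Set G) := by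
        intro h
        apply hg
        have h2 := (mem_iff_conj_mem_of_mem_normalizer hxC (x⁻¹ * g * x)).1 h
        have h3 : x * (x⁻¹ * g * x) * x⁻¹ = g := by group
        rwa [h3] at h2
      rw [coeff_emb_of_notMem _ hg, coeff_emb_of_notMem _ hg']
  rw [Subgroup.mem_centralizer_iff]
  intro u hu
  have hcen : ∀ v ∈ D, ∀ (hv : v ∈ Subgroup.centralizer (D : Set G)),
      ∀ g : Subgroup.centralizer (D : Set G), g * ⟨v, hv⟩ = ⟨v, hv⟩ * g := by
    intro v hvD hv g
    apply Subtype.ext
    exact (Subgroup.mem_centralizer_iff.1 g.2 v hvD).symm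
  have hembs : ∀ v (hv : v ∈ Subgroup.centralizer (D : Set G)),
      emb (K := ResField M) _ (MonoidAlgebra.single (⟨v, hv⟩ : Subgroup.centralizer (D : Set G)) 1) =
        MonoidAlgebra.single v 1 := by
    intro v hv
    refine ext_coeff fun g => ?_
    by_cases hg : g ∈ Subgroup.centralizer (D : Set G)
    · rw [coeff_emb_of_mem _ hg, MonoidAlgebra.coeff_single, MonoidAlgebra.coeff_single,
        Finsupp.single_apply, Finsupp.single_apply]
      by_cases h : v = g
      · rw [if_pos h, if_pos (Subtype.ext h)]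
      · rw [if_neg h, if_neg (fun h' => h (congrArg Subtype.val h'))]
    · rw [coeff_emb_of_notMem _ hg, MonoidAlgebra.coeff_single, Finsupp.single_apply,
        if_neg (fun h => hg (by rw [← h]; exact hv))]
  have h1 := hfix _ (single_mul_mem_zblk hM hbP (hcen u hu (hDC hu)))
  rw [map_mul, map_mul, hembs, hxf] at h1
  have h2 : cj x (MonoidAlgebra.single u (1 : ResField M)) =
      MonoidAlgebra.single (x * u * x⁻¹) 1 := by
    refine ext_coeff fun g => ?_
    rw [coeff_cj, MonoidAlgebra.coeff_single, MonoidAlgebra.coeff_single, Finsupp.single_apply,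
      Finsupp.single_apply]
    have h3 : u = x⁻¹ * g * x ↔ x * u * x⁻¹ = g := by
      constructor
      · rintro rfl
        group
      · rintro rfl
        group
    by_cases h : x * u * x⁻¹ = g
    · rw [if_pos h, if_pos (h3.2 h)]
    · rw [if_neg h, if_neg (fun h' => h (h3.1 h'))]
  rw [h2] at h1
  have hxu : x * u * x⁻¹ ∈ D := (Subgroup.mem_normalizer_iff.1 hx u).1 hu
  set v := u⁻¹ * (x * u * x⁻¹) with hv
  have hvD : v ∈ D := D.mul_mem (D.inv_mem hu) hxu
  have h3 : MonoidAlgebra.single v (1 : ResField M) * emb _ (idem M b.1) = emb _ (idem M b.1) := by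
    have h4 := congrArg (fun t => MonoidAlgebra.single u⁻¹ (1 : ResField M) * t) h1
    beta_reduce at h4
    rw [← mul_assoc, ← mul_assoc, MonoidAlgebra.single_mul_single,
      MonoidAlgebra.single_mul_single, inv_mul_cancel, one_mul, ← MonoidAlgebra.one_def,
      one_mul] at h4
    exact h4
  rw [← hembs v (hDC hvD), ← map_mul] at h3
  have h4 := emb_injective _ h3
  obtain ⟨k, hk⟩ := hDp ⟨v, hvD⟩
  have hk' : v ^ p ^ k = 1 := congrArg (Subtype.val : D → G) hk
  have h5 := eq_one_of_single_mul hM hbP (hcen v hvD (hDC hvD)) (k := k) (Subtype.ext hk') h4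
  have h6 : v = 1 := congrArg Subtype.val h5
  rw [hv, inv_mul_eq_one] at h6
  calc u * x = (x * u * x⁻¹) * x := by rw [← h6]
    _ = x * u := by group

end Cfsg.Agent.H699.BrInj
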