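import Mathlib
import Cfsg.Agent.H699.EqDeg
import Cfsg.Agent.H699.LocalAlg
import Cfsg.Agent.H653.RankBound
import Cfsg.Agent.Blocks.CyclicAssembly
import Cfsg.Agent.Blocks.CyclicSimple

/-!
# Simple modules of a block and irreducible Brauer characters (helper699)

* `exists_ibr`: an irreducible representation over `ResField M` on which the idempotent of `B` acts as
  the identity gives an element of `ibrUnder V B` with the same trace and degree;
* `exists_dat`: a block of rank one has exactly one such representation.
-/

set_option autoImplicit false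

universe u

namespace Cfsg.Agent.H699.Bridge

open Cfsg IsLocalRing Module Cfsg.Agent.H657 Cfsg.Agent.H699.IBrLift
open Cfsg.Agent.H608.BlockRank Cfsg.Agent.Blocks.Local

attribute [local instance] Above.isAlgClosed

variable {V : ValuationSubring ℂ} {G : Type u} [Group G] {M : Ideal AlgInt} {p : ℕ}
  {B : Set (IrrCharacter G)}

section ext

variable {K L : Type*} [Field K] [Field L] (f : K →+* L) {n : ℕ}

/-- Extension of scalars for matrix representations. -/
noncomputable def ext (σ : Representation K G (Fin n → K)) : Representation L G (Fin n → L) where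
  toFun g := Matrix.toLin' ((LinearMap.toMatrix' (σ g)).map f)
  map_one' := by
    rw [map_one, LinearMap.toMatrix'_one, Matrix.map_one _ (map_zero _) (map_one _),
      Matrix.toLin'_one]
    rfl
  map_mul' g h := by
    rw [map_mul, LinearMap.toMatrix'_mul, Matrix.map_mul, Matrix.toLin'_mul]
    rfl

theorem ext_apply (σ : Representation K G (Fin n → K)) (g : G) :
    ext f σ g = Matrix.toLin' ((LinearMap.toMatrix' (σ g)).map f) := rfl

theorem trace_ext (σ : Representation K G (Fin n → K)) (g : G) :
    LinearMap.trace L _ (ext f σ g) = f (LinearMap.trace K _ (σ g)) := by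
  rw [ext_apply, Matrix.trace_toLin'_eq]
  conv_rhs => rw [← Matrix.toLin'_toMatrix' (σ g), Matrix.trace_toLin'_eq]
  simp only [Matrix.trace, Matrix.diag_apply, Matrix.map_apply, map_sum]

theorem asAlgebraHom_sum_single {K : Type*} [Field K] [Fintype G] {W : Type*} [AddCommGroup W]
    [Module K W] (τ : Representation K G W) (a : G → K) :
    τ.asAlgebraHom (∑ g, MonoidAlgebra.single g (a g)) = ∑ g, a g • τ g := by
  rw [map_sum]
  exact Finset.sum_congr rfl fun g _ => Representation.asAlgebraHom_single _ _ _

theorem ext_irr [Finite G] [IsAlgClosed K] {σ : Representation K G (Fin n → K)}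
    (hσ : σ.IsIrreducible) : (ext f σ).IsIrreducible := by
  classical
  have := Fintype.ofFinite G
  have hn : n ≠ 0 := by
    have h1 := finrank_ne_zero' σ hσ
    rwa [finrank_fin_fun] at h1
  have : Nonempty (Fin n) := ⟨⟨0, Nat.pos_of_ne_zero hn⟩⟩
  refine isIrreducible_of_surjective _ fun T => ?_
  have hm : ∀ X : Matrix (Fin n) (Fin n) L, ∃ a : MonoidAlgebra L G,
      (ext f σ).asAlgebraHom a = Matrix.toLin' X := by
    intro X
    induction X using Matrix.induction_on' with
    | h_zero => exact ⟨0, by rw [map_zero, map_zero]⟩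
    | h_add X Y hX hY =>
      obtain ⟨a, ha⟩ := hX
      obtain ⟨a', ha'⟩ := hY
      exact ⟨a + a', by rw [map_add, map_add, ha, ha']⟩
    | h_std_basis i j x =>
      obtain ⟨b, hb⟩ := Blocks.ModularTraces.exists_density (ι := Unit) (fun _ => σ)
        (fun _ => hσ) (fun i j h => absurd (Subsingleton.elim i j) h)
        (fun _ => Matrix.toLin' (Matrix.single i j (1 : K)))
      have hb' := hb ()
      have hbs : b = ∑ g, MonoidAlgebra.single g (b.coeff g) := by
        apply Cfsg.Agent.H644.ext_coeff
        intro g
        rw [MonoidAlgebra.coeff_sum, Finsupp.finsetSum_apply, Finset.sum_eq_single g]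
        · rw [MonoidAlgebra.coeff_single, Finsupp.single_eq_same]
        · intro h _ hne
          rw [MonoidAlgebra.coeff_single, Finsupp.single_eq_of_ne hne.symm]
        · intro h
          exact absurd (Finset.mem_univ _) h
      rw [hbs, asAlgebraHom_sum_single] at hb'
      have h1 := congrArg LinearMap.toMatrix' hb'
      rw [map_sum, LinearMap.toMatrix'_toLin'] at h1
      refine ⟨∑ g, MonoidAlgebra.single g (x * f (b.coeff g)), ?_⟩
      rw [asAlgebraHom_sum_single]
      have h2 : ∀ g, (x * f (b.coeff g)) • ext f σ g = Matrix.toLin'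
          (x • (LinearMap.toMatrix' (b.coeff g • σ g)).map f) := by
        intro g
        rw [ext_apply, ← map_smul]
        congr 1
        ext k l
        simp only [Matrix.smul_apply, Matrix.map_apply, map_smul, smul_eq_mul, map_mul]
        ring
      rw [Finset.sum_congr rfl fun g _ => h2 g, ← map_sum, ← Finset.smul_sum]
      congr 1
      have h7 : ∑ g, (LinearMap.toMatrix' (b.coeff g • σ g)).map f =
          (∑ g, LinearMap.toMatrix' (b.coeff g • σ g)).map f := by
        ext k l
        simp only [Matrix.sum_apply, Matrix.map_apply, map_sum]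
      rw [h7, h1]
      ext k l
      simp only [Matrix.smul_apply, Matrix.map_apply, Matrix.single_apply, smul_eq_mul]
      split_ifs <;> simp
  obtain ⟨a, ha⟩ := hm (LinearMap.toMatrix' T)
  exact ⟨a, by rw [ha, Matrix.toLin'_toMatrix']⟩

theorem ext_scalar [Fintype G] (σ : Representation K G (Fin n → K)) (a : G → K) {c : K}
    (h : ∑ x, a x • σ x = c • (1 : Module.End K (Fin n → K))) :
    ∑ x, f (a x) • ext f σ x = f c • (1 : Module.End L (Fin n → L)) := by
  classical
  have h3 := congrArg (fun T => Matrix.toLin' ((LinearMap.toMatrix' T).map f)) h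
  beta_reduce at h3
  have h4 : Matrix.toLin' ((LinearMap.toMatrix' (c • (1 : Module.End K (Fin n → K)))).map f) =
      f c • (1 : Module.End L (Fin n → L)) := by
    rw [map_smul, LinearMap.toMatrix'_one]
    have h5 : (c • (1 : Matrix (Fin n) (Fin n) K)).map f =
        f c • (1 : Matrix (Fin n) (Fin n) L) := by
      ext k l
      simp only [Matrix.map_apply, Matrix.smul_apply, Matrix.one_apply, smul_eq_mul, map_mul]
      split_ifs <;> simp
    rw [h5, map_smul, Matrix.toLin'_one]
    rfl
  rw [h4] at h3
  rw [← h3, map_sum]
  have h6 : (∑ x, LinearMap.toMatrix' (a x • σ x)).map f = ∑ x, f (a x) •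
        (LinearMap.toMatrix' (σ x)).map f := by
    ext k l
    simp only [Matrix.sum_apply, Matrix.map_apply, map_sum, map_smul, Matrix.smul_apply,
      smul_eq_mul, map_mul]
  rw [h6, map_sum]
  refine Finset.sum_congr rfl fun x _ => ?_
  rw [map_smul, ext_apply]

end ext

section main

variable [Finite G] [hP : M.IsPrime]

/-- The embedding of the residue fields. -/
noncomputable def iot (hM : IsPModular p M) (hV : Above M V) : ResField M →+* ResidueField V :=
  Ideal.Quotient.lift (localIdeal M)
    ((residue V).comp
      { toFun := fun z : localRing M => (⟨z, hV.mem_of_local hM.2.1 z.2⟩ : V)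
        map_one' := rfl
        map_mul' := fun _ _ => rfl
        map_zero' := rfl
        map_add' := fun _ _ => rfl })
    (fun _ ha => Above.residue_eq_zero_iff'.2 (hV.nonunit_of_local hM.2.1 ha))

theorem iot_redC (hM : IsPModular p M) (hV : Above M V) {z : ℂ} (hz : MemLocalRing M z) :
    iot hM hV (redC M z) = residue V ⟨z, hV.mem_of_local hM.2.1 hz⟩ := by
  rw [redC_def hz]
  rfl

/-- The central character of an irreducible representation in the block `B`. -/
theorem exists_lam (hM : IsPModular p M) [IsAlgClosed (ResField M)] (hB : IsPBlock M B) {n : ℕ}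
    {σ : Representation (ResField M) G (Fin n → ResField M)} (hσ : σ.IsIrreducible)
    (hact : σ.asAlgebraHom (H644.idem M B) = 1) {χ : IrrCharacter G} (hχ : χ ∈ B)
    {x : MonoidAlgebra (ResField M) G} (hx : H644.IsCls x) :
    σ.asAlgebraHom x = H644.lam M (χ : G → ℂ) x • (1 : Module.End (ResField M) _) := by
  classical
  have hn : n ≠ 0 := by
    have h1 := finrank_ne_zero' σ hσ
    rwa [finrank_fin_fun] at h1
  let j : Fin n := ⟨0, Nat.pos_of_ne_zero hn⟩
  have hsc : ∀ x : MonoidAlgebra (ResField M) G, H644.IsCls x →
      ∃ c : ResField M, σ.asAlgebraHom x = c • (1 : Module.End (ResField M) _) := by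
    intro x hx
    have h1 : ∀ T : Module.End (ResField M) (Fin n → ResField M),
        Commute T (σ.asAlgebraHom x) := by
      intro T
      obtain ⟨b, hb⟩ := Blocks.ModularTraces.exists_density (ι := Unit) (fun _ => σ)
        (fun _ => hσ) (fun i j h => absurd (Subsingleton.elim i j) h) (fun _ => T)
      have hb' := hb ()
      show _ * _ = _ * _
      rw [← hb', ← map_mul, ← map_mul, H644.isCls_comm hx]
    have h2 : σ.asAlgebraHom x ∈
        Subalgebra.center (ResField M) (Module.End (ResField M) (Fin n → ResField M)) :=
      Subalgebra.mem_center_iff.2 fun T => h1 T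
    rw [Algebra.IsCentral.center_eq_bot (ResField M)
      (Module.End (ResField M) (Fin n → ResField M))] at h2
    obtain ⟨c, hc⟩ := h2
    exact ⟨c, by rw [← Algebra.algebraMap_eq_smul_one]; exact hc.symm⟩
  let L : MonoidAlgebra (ResField M) G →ₗ[ResField M] ResField M :=
    { toFun := fun x => σ.asAlgebraHom x (Pi.single j 1) j
      map_add' := fun x y => by rw [map_add]; rfl
      map_smul' := fun c x => by rw [map_smul]; rfl }
  have hL : ∀ x c, σ.asAlgebraHom x = c • (1 : Module.End (ResField M) _) → L x = c := by
    intro x c hx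
    show σ.asAlgebraHom x (Pi.single j 1) j = c
    rw [hx]
    simp
  have hmul : ∀ x y, H644.IsCls x → H644.IsCls y → L (x * y) = L x * L y := by
    intro x y hx hy
    obtain ⟨c, hc⟩ := hsc x hx
    obtain ⟨c', hc'⟩ := hsc y hy
    rw [hL x c hc, hL y c' hc']
    apply hL
    rw [map_mul, hc, hc', smul_mul_smul_comm, one_mul]
  have hone : L 1 = 1 := hL 1 1 (by rw [map_one, one_smul])
  obtain ⟨B', hB', -, huni, hlam⟩ := H644.exists_block_of_functional hM L hmul hone
  have hBB : B = B' := huni B hB (hL _ 1 (by rw [hact, one_smul]))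
  obtain ⟨c, hc⟩ := hsc x hx
  rw [hc, ← hlam χ (hBB ▸ hχ) x hx, hL x c hc]

/-- An irreducible representation over `ResField M` in the block `B`. -/
theorem exists_ibr (hM : IsPModular p M) (hV : Above M V) [IsAlgClosed (ResField M)]
    (hB : IsPBlock M B) {n : ℕ}
    {σ : Representation (ResField M) G (Fin n → ResField M)} (hσ : σ.IsIrreducible)
    (hact : σ.asAlgebraHom (H644.idem M B) = 1) :
    ∃ i ∈ ibrUnder V B, i.deg = n ∧
      ∀ g, i.1 g = iot hM hV (LinearMap.trace (ResField M) _ (σ g)) := by
  classical
  have := Fintype.ofFinite G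
  have hirr := ext_irr (f := iot hM hV) hσ
  let i : IBr V G := ⟨fun g => iot hM hV (LinearMap.trace (ResField M) _ (σ g)), n,
    ext (iot hM hV) σ, hirr, fun g => trace_ext _ _ _⟩
  obtain ⟨e, he⟩ := equiv_of_trace (ext (iot hM hV) σ) i.rep hirr i.rep_irr
    (fun g => by rw [i.trace_rep, trace_ext])
  obtain ⟨χ, hχ⟩ := Blocks.Basic.isPBlock_nonempty hB
  refine ⟨i, ⟨χ, hχ, fun g => ?_⟩, ?_, fun g => rfl⟩
  · have hint : IsIntegral ℤ (centralChar (χ : G → ℂ) g) :=
      Blocks.Central.isIntegral_centralChar χ.2 g
    have hloc : MemLocalRing M (centralChar (χ : G → ℂ) g) := memLocalRing_of_isIntegral hint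
    refine ⟨⟨_, hV.mem_of_local hM.2.1 hloc⟩, rfl, ?_⟩
    rw [← iot_redC hM hV hloc, ← H644.lam_clsSum]
    -- the scalar on `i.rep`
    have h1 := exists_lam hM hB hσ hact hχ (H644.isCls_clsSum (M := M) g)
    set c := H644.lam M (χ : G → ℂ) (H644.clsSum M g) with hc
    have hcs : H644.clsSum M g = ∑ x, MonoidAlgebra.single x
        ((if IsConj g x then (1 : ResField M) else 0)) := by
      apply H644.ext_coeff
      intro y
      rw [MonoidAlgebra.coeff_sum, Finsupp.finsetSum_apply, Finset.sum_eq_single y]
      · rw [MonoidAlgebra.coeff_single, Finsupp.single_eq_same, H644.coeff_clsSum]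
        split_ifs <;> rfl
      · intro h _ hne
        rw [MonoidAlgebra.coeff_single, Finsupp.single_eq_of_ne hne.symm]
      · intro h
        exact absurd (Finset.mem_univ _) h
    rw [hcs, asAlgebraHom_sum_single] at h1
    have h2 : ∑ x, (if IsConj g x then (1 : ResidueField V) else 0) • ext (iot hM hV) σ x =
        iot hM hV c • (1 : Module.End (ResidueField V) (Fin n → ResidueField V)) := by
      rw [← ext_scalar (iot hM hV) σ _ h1]
      refine Finset.sum_congr rfl fun x _ => ?_
      rw [apply_ite (iot hM hV), map_one, map_zero]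
    have h3 : (i.cc g) • (1 : Module.End (ResidueField V) (Fin i.deg → ResidueField V)) =
        iot hM hV c • (1 : Module.End (ResidueField V) (Fin i.deg → ResidueField V)) := by
      rw [← i.cc_spec g]
      apply LinearMap.ext
      intro w
      have h4 := LinearMap.congr_fun h2 (e.symm w)
      have h5 := congrArg e h4
      simp only [LinearMap.sum_apply, LinearMap.smul_apply, map_sum, map_smul, he,
        Module.End.one_apply, LinearEquiv.apply_symm_apply] at h5
      simp only [LinearMap.sum_apply, LinearMap.smul_apply, Module.End.one_apply]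
      exact h5
    have hdp : 0 < i.deg := deg_pos i
    have : Nontrivial (Fin i.deg → ResidueField V) := by
      have : Nonempty (Fin i.deg) := ⟨⟨0, hdp⟩⟩
      infer_instance
    exact (smul_one_injective h3).symm
  · have h2 := e.finrank_eq
    rw [finrank_fin_fun, finrank_fin_fun] at h2
    exact h2.symm

/-- There is an irreducible representation in each block. -/
theorem exists_act (hM : IsPModular p M) (hB : IsPBlock M B) :
    ∃ (n : ℕ) (σ : Representation (ResField M) G (Fin n → ResField M)),
      σ.IsIrreducible ∧ σ.asAlgebraHom (H644.idem M B) = 1 := by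
  classical
  set e := H644.idem M B with he
  have hBu := H644.isUnion_of_isPBlock hB
  have hee : e * e = e := H644.idem_mul_self hM hBu
  have hcls : H644.IsCls e := H644.isCls_idem B
  have hne : e ≠ 0 := H644.idem_ne_zero hM hBu (Blocks.Basic.isPBlock_nonempty hB)
  let J : Ideal (MonoidAlgebra (ResField M) G) :=
    LinearMap.ker (LinearMap.toSpanSingleton (MonoidAlgebra (ResField M) G)
      (MonoidAlgebra (ResField M) G) e)
  have hJ : ∀ a, a ∈ J ↔ a * e = 0 := by
    intro a
    rw [LinearMap.mem_ker, LinearMap.toSpanSingleton_apply, smul_eq_mul]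
  have hJtop : J ≠ ⊤ := by
    intro h
    have h1 : (1 : MonoidAlgebra (ResField M) G) ∈ J := by rw [h]; exact Submodule.mem_top
    rw [hJ, one_mul] at h1
    exact hne h1
  obtain ⟨L, hL, hJL⟩ := Ideal.exists_le_maximal J hJtop
  have hs : IsSimpleModule (MonoidAlgebra (ResField M) G) (MonoidAlgebra (ResField M) G ⧸ L) :=
    isSimpleModule_iff_isCoatom.2 hL.1
  obtain ⟨n, σ, b, hσ, hb⟩ := Blocks.CyclicSimple.exists_rep (F := ResField M) (G := G)
    (MonoidAlgebra (ResField M) G ⧸ L)
  have hb' : ∀ (a : MonoidAlgebra (ResField M) G) (s : MonoidAlgebra (ResField M) G ⧸ L),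
      σ.asAlgebraHom a (b s) = b (a • s) := by
    intro a s
    induction a using MonoidAlgebra.induction_linear with
    | zero => rw [map_zero, LinearMap.zero_apply, zero_smul, map_zero]
    | add x y hx hy => rw [map_add, LinearMap.add_apply, hx, hy, add_smul, map_add]
    | single g c =>
      rw [Representation.asAlgebraHom_single, LinearMap.smul_apply, ← hb, ← map_smul]
      congr 1
      have h1 : MonoidAlgebra.single g c = c • Cfsg.Agent.Blocks.CyclicLower.el (ResField M) g := by
        change _ = c • MonoidAlgebra.single g (1 : ResField M)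
        rw [MonoidAlgebra.smul_single, smul_eq_mul, mul_one]
      rw [h1, smul_assoc]
  refine ⟨n, σ, hσ, LinearMap.ext fun w => ?_⟩
  obtain ⟨s, rfl⟩ := b.surjective w
  rw [hb', Module.End.one_apply]
  congr 1
  obtain ⟨a, rfl⟩ := Submodule.Quotient.mk_surjective L s
  rw [← Submodule.Quotient.mk_smul, Submodule.Quotient.eq]
  apply hJL
  rw [hJ, smul_eq_mul, sub_mul, H644.isCls_comm hcls a, mul_assoc, hee, sub_self]

theorem exists_dat (hM : IsPModular p M) [IsAlgClosed (ResField M)] (hB : IsPBlock M B)
    (hl : blockRank p B = 1) :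
    ∃ (n : ℕ) (σ : Representation (ResField M) G (Fin n → ResField M)),
      LocalAlg.Dat (H644.idem M B) σ := by
  classical
  have : Fact p.Prime := ⟨hM.1⟩
  obtain ⟨n, σ, hσ, hact⟩ := exists_act hM hB
  have hBu := H644.isUnion_of_isPBlock hB
  refine ⟨n, σ, ⟨H644.idem_mul_self hM hBu, H644.isCls_comm (H644.isCls_idem B), hσ, hact, ?_⟩⟩
  intro m τ hτ hτact
  by_contra hcon
  have hne : IsEmpty (Representation.Equiv τ σ) := ⟨fun e => hcon ⟨e.toLinearEquiv, fun g w =>
    LinearMap.congr_fun (e.isIntertwining' g) w⟩⟩
  have hne' : IsEmpty (Representation.Equiv σ τ) := ⟨fun e => hcon ⟨e.toLinearEquiv.symm,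
    fun g w => by
      rw [LinearEquiv.symm_apply_eq]
      have := LinearMap.congr_fun (e.isIntertwining' g) (e.toLinearEquiv.symm w)
      have h3 : e.toLinearEquiv (σ g (e.toLinearEquiv.symm w)) =
        τ g (e.toLinearEquiv (e.toLinearEquiv.symm w)) := this
      rw [h3, LinearEquiv.apply_symm_apply]⟩⟩
  let N : Bool → ℕ := fun b => match b with
    | true => m
    | false => n
  let ρ : ∀ b : Bool, Representation (ResField M) G (Fin (N b) → ResField M) := fun b => match b with
    | true => τ
    | false => σ
  have h1 := H653.RankBound.card_le_blockRank hM hB ρ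
    (fun b => match b with
      | true => hτ
      | false => hσ)
    (fun b b' => match b, b' with
      | true, true => fun h => absurd rfl h
      | true, false => fun _ => hne
      | false, true => fun _ => hne'
      | false, false => fun h => absurd rfl h)
    (fun b => match b with
      | true => hτact
      | false => hact)
  rw [hl, Nat.card_eq_fintype_card, Fintype.card_bool] at h1
  omega

end main

end Cfsg.Agent.H699.Bridge
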