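import Mathlib
import Cfsg.Agent.H699.EqDeg
import Cfsg.Agent.H699.Bridge
import Cfsg.Agent.H699.BrInj
import Cfsg.Agent.Blocks.DefectCard
import Cfsg.Agent.Blocks.CyclicUpper
import Cfsg.Agent.Blocks.ReynoldsAux
import Cfsg.Agent.Characters.CCBasic
import Cfsg.Agent.S4675

/-!
# Blocks with abelian defect group, height zero and equal degrees (helper699)
-/

set_option autoImplicit false

universe u

namespace Cfsg.Agent.H699.AbDef

open Cfsg IsLocalRing Module Cfsg.Agent.H657 Cfsg.Agent.H699.IBrLift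
open Cfsg.Agent.H608.BlockRank Cfsg.Agent.Blocks.Local

attribute [local instance] Above.isAlgClosed

variable {G : Type u} [Group G] [Finite G] {M : Ideal AlgInt} {p : ℕ}
  {B : Set (IrrCharacter G)} {D : Subgroup G}

/-- If all degrees are equal then the number of irreducible characters is the order of the defect
group. -/
theorem card_eq (hM : IsPModular p M) (hB : IsPBlock M B) (hD : IsDefectGroup p M B D) {d : ℕ}
    (hd : ∀ χ ∈ B, charDegree (χ : G → ℂ) = d) : Nat.card B = Nat.card D := by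
  classical
  have := Fintype.ofFinite G
  have : Fact p.Prime := ⟨hM.1⟩
  have hMp := Blocks.Local.isPrime_of_isPModular hM
  have := Characters.Core.finite_irr (G := G)
  have : Fintype (IrrCharacter G) := Fintype.ofFinite _
  have hl := EqDeg.blockRank_eq_one hM hB hd
  obtain ⟨φ, m, ⟨n, hn⟩, hm, hsum⟩ := S4675.result p M hM B hB D hD hl
  have hreg : IsPRegular p (1 : G) := by
    unfold IsPRegular
    rw [orderOf_one]
    exact hM.1.not_dvd_one
  have hone : ∀ χ ∈ B, (χ : G → ℂ) 1 = (d : ℂ) := fun χ hχ => by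
    rw [Blocks.Basic.irr_one_eq_charDegree χ.2, hd χ hχ]
  obtain ⟨χ₀, hχ₀⟩ := Blocks.Basic.isPBlock_nonempty hB
  have hd0 : (d : ℂ) ≠ 0 := by
    rw [← hone χ₀ hχ₀]
    exact Characters.Core.isIrr_apply_one_ne_zero χ₀.2
  -- `φ 1` is a multiple of `d`
  have h1 : φ 1 = ((∑ ψ ∈ Finset.univ.filter (· ∈ B), n ψ : ℤ) : ℂ) * d := by
    rw [hn 1 hreg, finsum_mem_eq_toFinset_sum]
    push_cast
    rw [Finset.sum_mul]
    refine Finset.sum_congr (by ext χ; simp) fun ψ hψ => ?_
    rw [hone ψ (by simpa using hψ)]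
  have h2 : ∀ χ ∈ B, m χ = 1 := by
    intro χ hχ
    have h3 := hm χ hχ 1 hreg
    rw [hone χ hχ, h1, ← mul_assoc] at h3
    have h4 : (1 : ℂ) = (m χ : ℂ) * ((∑ ψ ∈ Finset.univ.filter (· ∈ B), n ψ : ℤ) : ℂ) :=
      mul_right_cancel₀ hd0 (by rw [one_mul]; exact h3)
    have h5 : (1 : ℤ) = (m χ : ℤ) * ∑ ψ ∈ Finset.univ.filter (· ∈ B), n ψ := by
      exact_mod_cast h4
    have h6 : (m χ : ℤ) ∣ 1 := ⟨_, h5⟩
    have h7 : (m χ : ℤ) = 1 := Int.eq_one_of_dvd_one (by positivity) h6
    exact_mod_cast h7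
  rw [← hsum, finsum_mem_eq_toFinset_sum, Finset.sum_congr rfl (g := fun _ => 1), Finset.sum_const,
    smul_eq_mul, mul_one, Nat.card_eq_fintype_card, Set.toFinset_card]
  intro χ hχ
  rw [h2 χ (by simpa using hχ), one_pow]

/-- The value of a height zero character at a defect class is a unit modulo the local ideal. -/
theorem not_memLocalIdeal_apply (hM : IsPModular p M) (hB : IsPBlock M B)
    (hD : IsDefectGroup p M B D) {χ : IrrCharacter G} (hχ : χ ∈ B)
    (h0 : blockHeight p B (χ : G → ℂ) = 0) {g : G} (hg : IsDefectClass M B g)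
    (P : Sylow p (Subgroup.centralizer ({g} : Set G)))
    (hDP : D = (P : Subgroup (Subgroup.centralizer ({g} : Set G))).map
      (Subgroup.centralizer ({g} : Set G)).subtype) :
    ¬ MemLocalIdeal M ((χ : G → ℂ) g) := by
  classical
  have : Fact p.Prime := ⟨hM.1⟩
  have hMp := Blocks.Local.isPrime_of_isPModular hM
  have hBu := H644.isUnion_of_isPBlock hB
  have hvan : ∀ y : G, p ∣ orderOf y → ∑ᶠ χ ∈ B, (χ : G → ℂ) 1 *
      (starRingEnd ℂ) ((χ : G → ℂ) y) = 0 := fun y hy =>
    Blocks.Orthogonality.weak_block_orthogonality hM B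
      (fun g => H644.memLocalRing_blockCoeff hM hBu g) (x := 1)
      (by rw [orderOf_one]; exact hM.1.not_dvd_one) hy
  have hcD := Blocks.DefectCard.card_defectGroup hM B hB hvan D hD
  have hcD' : Nat.card D = p ^ (Nat.card (Subgroup.centralizer ({g} : Set G))).factorization p := by
    rw [hDP, Subgroup.card_map_of_injective (Subgroup.subtype_injective _)]
    exact P.card_eq_multiplicity
  have h1 : (Nat.card (Subgroup.centralizer ({g} : Set G))).factorization p = blockDefect p B := by
    rw [hcD'] at hcD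
    exact Nat.pow_right_injective hM.1.two_le hcD
  have h2 : (Nat.card (Subgroup.centralizer ({g} : Set G))).factorization p +
      (Subgroup.centralizer ({g} : Set G)).index.factorization p =
        (Nat.card G).factorization p := by
    rw [← Subgroup.card_mul_index (Subgroup.centralizer ({g} : Set G)),
      Nat.factorization_mul Nat.card_pos.ne' Subgroup.index_ne_zero_of_finite, Finsupp.add_apply]
  have h3 : (charDegree (χ : G → ℂ)).factorization p ≤ (Nat.card G).factorization p :=
    (Nat.factorization_le_iff_dvd (Blocks.Basic.charDegree_pos χ.2).ne' Nat.card_pos.ne').2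
      (Blocks.CyclicUpper.charDegree_dvd χ.2) p
  have h4 : (charDegree (χ : G → ℂ)).factorization p ≤
      (Subgroup.centralizer ({g} : Set G)).index.factorization p := by
    rw [Blocks.Basic.blockHeight_def] at h0
    rw [Blocks.Basic.blockDefect_def] at h1
    omega
  intro hmem
  apply hg.2.2 χ hχ
  have h5 : centralChar (χ : G → ℂ) g =
      (((Subgroup.centralizer ({g} : Set G)).index : ℂ) / (charDegree (χ : G → ℂ) : ℂ)) *
        (χ : G → ℂ) g := by
    unfold centralChar
    rw [Blocks.Basic.irr_one_eq_charDegree χ.2]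
    ring
  rw [h5]
  exact memLocalIdeal_mul_left
    (Blocks.ReynoldsAux.memLocalRing_natCast_div hM (Blocks.Basic.charDegree_pos χ.2).ne' h4) hmem

/-- **The inertial quotient is trivial if all degrees are equal.** -/
theorem exists_pair (hM : IsPModular p M) (hB : IsPBlock M B) (hD : IsDefectGroup p M B D)
    (hDab : ∀ x ∈ D, ∀ y ∈ D, x * y = y * x)
    (h0 : ∀ χ ∈ B, blockHeight p B (χ : G → ℂ) = 0) {d : ℕ}
    (hd : ∀ χ ∈ B, charDegree (χ : G → ℂ) = d) :
    ∃ b : Set (IrrCharacter (Subgroup.centralizer (D : Set G))),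
      IsMaximalBrauerPair p M B D b ∧
      ∀ x ∈ Subgroup.normalizer (D : Set G),
        StabilizesBlock (Subgroup.centralizer (D : Set G)) b x →
          x ∈ Subgroup.centralizer (D : Set G) := by
  classical
  have := Fintype.ofFinite G
  have : Fact p.Prime := ⟨hM.1⟩
  have hMp := Blocks.Local.isPrime_of_isPModular hM
  have hmax : M.IsMaximal := hM.2.1
  have hac : IsAlgClosed (ResField M) := Blocks.CyclicAssembly.isAlgClosed_resField
  obtain ⟨V, hV⟩ := exists_above hM
  have : CharP (ResidueField V) p := hV.charP hM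
  have hBu := H644.isUnion_of_isPBlock hB
  have hl := EqDeg.blockRank_eq_one hM hB hd
  have hcard := card_eq hM hB hD hd
  obtain ⟨i, hid, hpr, hun⟩ := EqDeg.exists_single hM hV hB hd
  obtain ⟨n, σ, hdat⟩ := Bridge.exists_dat hM hB hl
  obtain ⟨j, hj, hjn, htr⟩ := Bridge.exists_ibr hM hV hB hdat.irr hdat.one
  have hji : j = i := by
    rw [hun] at hj
    exact hj
  have hnd : n = d := by rw [← hjn, hji, hid]
  have hdim : finrank (ResField M) (LocalAlg.blk (H644.idem M B)) ≤
      n ^ 2 * finrank (ResField M) (LocalAlg.zblk (H644.idem M B)) := by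
    rw [DimBlk.finrank_blk hM hBu, DimBlk.finrank_zblk hM hBu]
    have h1 : ∑ᶠ χ ∈ B, charDegree (χ : G → ℂ) ^ 2 = ∑ᶠ χ ∈ B, d ^ 2 := by
      refine finsum_mem_congr rfl fun χ hχ => ?_
      rw [hd χ hχ]
    have := Characters.Core.finite_irr (G := G)
    have : Fintype (IrrCharacter G) := Fintype.ofFinite _
    rw [h1, finsum_mem_eq_toFinset_sum, Finset.sum_const, smul_eq_mul, Set.toFinset_card,
      Nat.card_eq_fintype_card, hnd, mul_comm]
  obtain ⟨g, hg, P, hDP⟩ := hD
  have hgC : g ∈ Subgroup.centralizer (D : Set G) := by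
    rw [Subgroup.mem_centralizer_iff]
    intro x hx
    rw [SetLike.mem_coe, hDP] at hx
    obtain ⟨y, -, rfl⟩ := hx
    exact (Subgroup.mem_centralizer_iff.1 y.2 g rfl).symm
  obtain ⟨χ, hχ⟩ := Blocks.Basic.isPBlock_nonempty hB
  have hgreg : ¬ p ∣ orderOf g := by
    intro hdvd
    apply hg.2.1
    have h1 := Blocks.Orthogonality.weak_block_orthogonality hM B
      (fun g => H644.memLocalRing_blockCoeff hM hBu g) (x := 1)
      (by rw [orderOf_one]; exact hM.1.not_dvd_one) hdvd
    unfold blockCoeff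
    rw [h1, mul_zero]
    exact memLocalIdeal_zero
  have hval := not_memLocalIdeal_apply hM hB ⟨g, hg, P, hDP⟩ hχ (h0 χ hχ) hg P hDP
  have hty : LinearMap.trace (ResField M) _ (σ g) ≠ 0 := by
    intro h
    apply hval
    have hint : MemLocalRing M ((χ : G → ℂ) g) :=
      memLocalRing_of_isIntegral (Blocks.Central.isIntegral_irr χ.2 g)
    rw [← redC_eq_zero_iff hint]
    apply (Bridge.iot hM hV).injective
    rw [map_zero, Bridge.iot_redC hM hV hint]
    obtain ⟨z, hz, hz'⟩ := phi_spec (p := p) i hgreg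
    have h2 : (⟨(χ : G → ℂ) g, hV.mem_of_local hM.2.1 hint⟩ : V) = z := by
      apply Subtype.ext
      show (χ : G → ℂ) g = z
      rw [← hz, ← hpr χ hχ, pReg_of hgreg]
    rw [h2, hz', ← hji, htr, h, map_zero]
  exact BrInj.exists_pair hM hB ⟨g, hg, P, hDP⟩
    (Blocks.Basic.isPGroup_of_isDefectGroup ⟨g, hg, P, hDP⟩) hDab hdat hdim hcard hgC hty

end Cfsg.Agent.H699.AbDef
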