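import Cfsg.Agent.H634.SdDef
import Cfsg.Agent.H684.BlockTools

/-!
# S4579, R2: inflation of a non-real odd-degree character of the principal 2-block (helper699, task 3440)
-/

set_option autoImplicit false

open Cfsg

namespace Cfsg.Agent.H699.SdQuot

open Cfsg.Agent.H634.Sd

universe u

variable {G : Type u} [Group G] [Finite G] {M : Ideal AlgInt}

/-- R2. -/
theorem quot [Fact (Nat.Prime 2)] (hM : IsPModular 2 M) (N : Subgroup G) [N.Normal] (h : HasNR M (G ⧸ N)) :
    HasNR M G := by
  obtain ⟨χ, hχ, hodd, g, hg⟩ := h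
  obtain ⟨g, rfl⟩ := QuotientGroup.mk'_surjective N g
  refine ⟨H684.BlockTools.infl (QuotientGroup.mk' N) (QuotientGroup.mk'_surjective N) χ,
    H684.BlockTools.infl_mem hM _ _ hχ, ?_, g, hg⟩
  have h1 : charDegree ((H684.BlockTools.infl (QuotientGroup.mk' N) (QuotientGroup.mk'_surjective N) χ :
      IrrCharacter G) : G → ℂ) = charDegree (χ : G ⧸ N → ℂ) := by
    change charDegree ((χ : G ⧸ N → ℂ) ∘ QuotientGroup.mk' N) = _
    unfold charDegree
    simp
  rw [h1]
  exact hodd

end Cfsg.Agent.H699.SdQuot
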