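import Cfsg.Agent.H699.TPOrthMain
import Cfsg.Agent.H436.Names

/-!
# Block TP (S3536): the orthogonal groups of even dimension (helper699, task 3259)
-/

set_option autoImplicit false

namespace Cfsg.Agent.H699.TPOrth

open Cfsg Cfsg.Agent.H202.TP Cfsg.Agent.H436
open Cfsg.Agent.LieClassical.OrthForms Cfsg.Agent.H182.Orth Cfsg.Agent.H403.Classify Cfsg.Agent.H182.Sign

/-- **Plus type.** -/
theorem oplus' {p q k d u : ℕ} {S : Type*} [Group S] (h : TK p q k S) (hg : IsNamed (.oplus d u) S) : False := by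
  obtain ⟨F, iF, iF', hu, ⟨e⟩⟩ := hg.real
  have hn : 4 ≤ d := hg.cond.1
  have hcard := Cfsg.Agent.S0293.result (F := F) rfl d hn
  simp only [← Nat.card_eq_fintype_card] at hcard
  have h1 := h.congr e
  rw [← coe_plusForm] at h1 hcard
  exact plus_false (sg_plusForm (F := F) d) hn hcard h1

/-- **Plus type.** -/
theorem oplus {p q k d u : ℕ} {S : Type*} [Group S] (h : TK p q k S) (hg : IsNamed (.oplus d u) S)
    (_hv : ¬ p ∣ u) : False := oplus' h hg

/-- **Minus type.** -/
theorem ominus {p q k d u : ℕ} {S : Type*} [Group S] (h : TK p q k S) (hg : IsNamed (.ominus d u) S)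
    (hv : ¬ p ∣ u) : False := by
  obtain ⟨F, iF, iF', a, b, hu, hab, ⟨e⟩⟩ := hg.real
  have hn : 4 ≤ d := hg.cond.1
  have hcard := Cfsg.Agent.S0294.result (F := F) rfl d hn a b hab
  simp only [← Nat.card_eq_fintype_card] at hcard
  have h1 := h.congr e
  rw [← coe_minusForm] at h1 hcard
  have hs := sg_minusForm (F := F) (d - 1) hab
  rw [Nat.sub_add_cancel (by omega)] at hs
  have hpp : ∀ r s, r.Prime → s.Prime → r ∣ Nat.card F → s ∣ Nat.card F → r = s := by
    obtain ⟨t, ht, hF⟩ := FiniteField.card F (ringChar F)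
    intro r s hr hs hrd hsd
    rw [Nat.card_eq_fintype_card, hF] at hrd hsd
    rw [(Nat.prime_dvd_prime_iff_eq hr ht).1 (hr.dvd_of_dvd_pow hrd),
      (Nat.prime_dvd_prime_iff_eq hs ht).1 (hs.dvd_of_dvd_pow hsd)]
  exact minus_false hs hn hpp hcard h1 (by rwa [Nat.card_eq_fintype_card, hu])

end Cfsg.Agent.H699.TPOrth
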