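import Cfsg.Agent.H202.TP.Defs
import Cfsg.Agent.H901.TOrthMain

/-!
# Block TP (S3536), orthogonal groups of even dimension: preliminaries (helper699, task 3259)
-/

set_option autoImplicit false
set_option linter.unusedSectionVars false

namespace Cfsg.Agent.H699.TPOrth

open Cfsg.Agent.H202.TP Cfsg.Agent.H94.PG

section

variable {p q k : ℕ} {S : Type*} [Group S]

theorem mn_odd (h : TK p q k S) : Odd (mn q k) := by
  rw [h.mn_eq]
  exact Cfsg.Agent.H202.T.mm_odd h.odd_Q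

theorem exists_prime (h : TK p q k S) : ∃ r : ℕ, r.Prime ∧ r ∣ mn q k := by
  apply Nat.exists_prime_and_dvd
  have := h.mn_ge
  omega

/-- **The main principle.** -/
theorem eq_of (h : TK p q k S) {N r : ℕ} (hr : r.Prime) (hrm : r ∣ mn q k) (hrN : r ∣ N)
    (hN : ∃ x : S, orderOf x = N)
    (hv : ∀ s i : ℕ, s.Prime → s ∣ mn q k → 1 ≤ i → s ^ i ∣ Nat.card S → s ^ i ∣ N) : N = mn q k := by
  obtain ⟨x, rfl⟩ := hN
  have h0 : mn q k ≠ 0 := by
    have := h.mn_ge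
    omega
  have hd := h.iso r x hr hrm hrN
  have hx0 : orderOf x ≠ 0 := by
    intro h4
    rw [h4] at hd
    exact h0 (Nat.eq_zero_of_zero_dvd hd)
  apply Nat.dvd_antisymm hd
  rw [← Nat.factorization_prime_le_iff_dvd h0 hx0]
  intro s hs
  by_cases hsm : s ∣ mn q k
  · have h1 : s ^ (mn q k).factorization s ∣ mn q k := Nat.ordProj_dvd _ _
    have h2 : 1 ≤ (mn q k).factorization s := (hs.dvd_iff_one_le_factorization h0).1 hsm
    have h3 := hv s _ hs hsm h2 (h1.trans h.dvd_card)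
    exact (hs.pow_dvd_iff_le_factorization hx0).1 h3
  · rw [Nat.factorization_eq_zero_of_not_dvd hsm]
    exact Nat.zero_le _

variable [Finite S]

theorem adj (h : TK p q k S) {r s : ℕ} (hrm : r ∣ mn q k) (ha : Adj S r s) : s ∣ mn q k := by
  obtain ⟨hr, hs, hne, x, y, hx, hy, hxy⟩ := ha
  have h1 : orderOf (x * y) = r * s := by
    rw [hxy.orderOf_mul_eq_mul_orderOf_of_coprime (by rw [hx, hy]; exact (Nat.coprime_primes hr hs).2 hne), hx, hy]
  have h2 := h.iso r (x * y) hr hrm (by rw [h1]; exact Dvd.intro _ rfl)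
  rw [h1] at h2
  exact (Dvd.intro_left _ rfl : s ∣ r * s).trans h2

theorem conn (h : TK p q k S) {r s : ℕ} (hrm : r ∣ mn q k) (hc : Conn S r s) : s ∣ mn q k := by
  unfold Conn at hc
  induction hc with
  | refl => exact hrm
  | tail _ hbc ih => exact adj h ih hbc

/-- the prime divisors of `mn q k` are not connected with `2` -/
theorem not_conn (h : TK p q k S) {r : ℕ} (hrm : r ∣ mn q k) : ¬ Conn S r 2 := fun hc =>
  h.ne_two_of_dvd (conn h hrm hc) rfl

end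

/-! ### Arithmetic -/

theorem exists_two_pow {A : ℕ} (hA : A ≠ 0) : ∃ t, 2 ^ t ∣ A ∧ ¬ 2 ^ (t + 1) ∣ A := by
  refine ⟨A.factorization 2, Nat.ordProj_dvd _ _, ?_⟩
  exact Nat.pow_succ_factorization_not_dvd hA Nat.prime_two

/-- the 2-part: `4 (m - 1) = c A`, `c` odd and an element of order `A / 2` -/
theorem two_four {m A c : ℕ} (hc : Odd c) (hA : A ≠ 0) (hA2 : 4 ∣ A) (h : 4 * (m - 1) = c * A)
    (htwo : ∀ j, 2 ^ j ∣ A / 2 → 2 ^ j ∣ m - 1) : False := by
  obtain ⟨t, ht, ht'⟩ := exists_two_pow hA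
  have ht2 : 2 ≤ t := by
    by_contra hlt
    apply ht'
    refine (pow_dvd_pow 2 (show t + 1 ≤ 2 by omega)).trans ?_
    exact hA2
  obtain ⟨s, rfl⟩ : ∃ s, t = s + 1 := ⟨t - 1, by omega⟩
  have h1 : 2 ^ s ∣ A / 2 := by
    obtain ⟨b, rfl⟩ := ht
    rw [pow_succ, mul_assoc, mul_comm 2 b, ← mul_assoc, Nat.mul_div_cancel _ (by norm_num)]
    exact dvd_mul_right _ _
  have h2 := htwo s h1
  apply ht'
  have h3 : 2 ^ (s + 1 + 1) ∣ c * A := by
    rw [← h]
    obtain ⟨b, hb⟩ := h2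
    rw [hb]
    exact ⟨b, by ring⟩
  exact (Nat.Coprime.pow_left _ (Nat.coprime_two_left.2 hc)).dvd_of_dvd_mul_left h3

theorem val_three {n : ℕ} (hn : n ≠ 0) (he : Even n) : padicValNat 2 (3 ^ n - 1) = 2 + padicValNat 2 n := by
  have h := padicValNat.pow_two_sub_one (x := 3) (by norm_num) (by norm_num) hn he
  have h4 : padicValNat 2 (3 + 1) = 2 := by
    have : (3 + 1 : ℕ) = 2 ^ 2 := by norm_num
    rw [this, padicValNat.prime_pow]
  have h2 : padicValNat 2 (3 - 1) = 1 := by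
    have : (3 - 1 : ℕ) = 2 ^ 1 := by norm_num
    rw [this, padicValNat.prime_pow]
  omega

/-- `3 ^ (2 ^ v + 1) - 2` is not a power with exponent divisible by 4 -/
theorem three_pow_ne {q v k : ℕ} (hv : 1 ≤ v) (hk : 2 ≤ k) (h : 3 ^ (2 ^ v + 1) = q ^ 2 ^ k + 2) : False := by
  obtain ⟨a, rfl⟩ : ∃ a, k = a + 2 := ⟨k - 2, by omega⟩
  have hQ : q ^ 2 ^ (a + 2) = (q ^ 2 ^ a) ^ 4 := by
    rw [← pow_mul, pow_add]
    norm_num
  rw [hQ] at h
  set Q := q ^ 2 ^ a
  rcases Nat.even_or_odd v with ⟨w, hw⟩ | ⟨w, hw⟩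
  · -- modulo 7
    obtain ⟨z, hz⟩ : ∃ z, 2 ^ v = 6 * z + 4 := by
      have h4 : 4 ^ w % 6 = 4 := by
        obtain ⟨w', rfl⟩ : ∃ w', w = w' + 1 := ⟨w - 1, by omega⟩
        induction w' with
        | zero => norm_num
        | succ w' ih =>
          have e : 4 ^ (w' + 1 + 1) = 4 ^ (w' + 1) * 4 := pow_succ _ _
          have : 4 ^ (w' + 1) % 6 = 4 := by
            clear ih hw h e
            induction w' with
            | zero => norm_num
            | succ w' ih => rw [pow_succ, Nat.mul_mod, ih]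
          omega
      have e : 2 ^ v = 4 ^ w := by
        rw [hw, ← two_mul, pow_mul]
        norm_num
      exact ⟨4 ^ w / 6, by omega⟩
    have h7 : 3 ^ (2 ^ v + 1) % 7 = 5 := by
      rw [hz]
      have e : 6 * z + 4 + 1 = 6 * z + 5 := by ring
      rw [e, pow_add, pow_mul, Nat.mul_mod, Nat.pow_mod]
      norm_num
    have h8 : Q ^ 4 % 7 = 3 := by omega
    have h9 : Q ^ 4 % 7 = (Q % 7) ^ 4 % 7 := Nat.pow_mod _ _ _
    have h10 : Q % 7 < 7 := Nat.mod_lt _ (by norm_num)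
    interval_cases hh : Q % 7 <;> omega
  · -- modulo 13
    obtain ⟨z, hz⟩ : ∃ z, 2 ^ v = 3 * z + 2 := by
      have e : 2 ^ v = 4 ^ w * 2 := by
        rw [hw, pow_succ, pow_mul]
        norm_num
      have h4 : 4 ^ w % 3 = 1 := by
        rw [Nat.pow_mod]
        norm_num
      exact ⟨(4 ^ w * 2) / 3, by omega⟩
    have h7 : 3 ^ (2 ^ v + 1) % 13 = 1 := by
      rw [hz]
      have e : 3 * z + 2 + 1 = 3 * (z + 1) := by ring
      rw [e, pow_mul, Nat.pow_mod]
      norm_num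
    have h8 : Q ^ 4 % 13 = 12 := by omega
    have h9 : Q ^ 4 % 13 = (Q % 13) ^ 4 % 13 := Nat.pow_mod _ _ _
    have h10 : Q % 13 < 13 := Nat.mod_lt _ (by norm_num)
    interval_cases hh : Q % 13 <;> omega

/-- the 2-part in the case `2 m = 3 ^ j - 1` -/
theorem two_two {m j q k : ℕ} (hj : Odd j) (hj3 : 3 ≤ j) (hk : 2 ≤ k) (h : 2 * m + 1 = 3 ^ j)
    (hm : 2 * m = q ^ 2 ^ k + 1) (htwo : ∀ i, 1 ≤ i → i < j → ∀ a, 2 ^ a ∣ (3 ^ i - 1) / 2 → 2 ^ a ∣ m - 1) : False := by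
  obtain ⟨l, hl⟩ := hj
  have hj0 : j - 1 ≠ 0 := by omega
  have hje : Even (j - 1) := ⟨l, by omega⟩
  set v := padicValNat 2 (j - 1) with hv
  have hv1 : 1 ≤ v := by
    have : 2 ^ 1 ∣ j - 1 := by rw [pow_one]; exact hje.two_dvd
    exact (padicValNat_dvd_iff_le hj0).1 this
  have hvd : 2 ^ v ∣ j - 1 := pow_padicValNat_dvd
  have hle := Nat.le_of_dvd (by omega) hvd
  by_cases he : j - 1 = 2 ^ v
  · refine three_pow_ne (q := q) (k := k) hv1 hk ?_
    rw [← he, show j - 1 + 1 = j by omega, ← h, hm]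
  · -- the exponent `2 ^ (v + 1)`
    obtain ⟨c, hc⟩ := hvd
    have hc2 : 2 ≤ c := by
      rcases c with _ | _ | c
      · omega
      · omega
      · omega
    have hi : 2 ^ (v + 1) < j := by
      have : 2 ^ v * 2 ≤ 2 ^ v * c := Nat.mul_le_mul_left _ hc2
      rw [pow_succ]
      omega
    have h1 : padicValNat 2 (3 ^ 2 ^ (v + 1) - 1) = v + 3 := by
      rw [val_three (by positivity) ⟨2 ^ v, by rw [pow_succ]; ring⟩, padicValNat.prime_pow]
      omega
    have h2 : 2 ^ (v + 3) ∣ 3 ^ 2 ^ (v + 1) - 1 := by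
      rw [← h1]
      exact pow_padicValNat_dvd
    have h3 : 2 ^ (v + 2) ∣ (3 ^ 2 ^ (v + 1) - 1) / 2 := by
      obtain ⟨b, hb⟩ := h2
      rw [hb, show 2 ^ (v + 3) * b = 2 ^ (v + 2) * b * 2 by ring, Nat.mul_div_cancel _ (by norm_num)]
      exact dvd_mul_right _ _
    have h4 := htwo _ Nat.one_le_two_pow hi _ h3
    -- the valuation of `m - 1`
    have h5 : 2 * (m - 1) = 3 * (3 ^ (j - 1) - 1) := by
      have e : 3 ^ j = 3 * 3 ^ (j - 1) := by
        conv_lhs => rw [show j = j - 1 + 1 by omega]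
        rw [pow_succ]
        ring
      omega
    have h6 : 2 ^ (v + 3) ∣ 3 * (3 ^ (j - 1) - 1) := by
      rw [← h5]
      obtain ⟨b, hb⟩ := h4
      rw [hb]
      exact ⟨b, by ring⟩
    have h7 : 2 ^ (v + 3) ∣ 3 ^ (j - 1) - 1 :=
      (Nat.Coprime.pow_left _ (by norm_num : Nat.Coprime 2 3)).dvd_of_dvd_mul_left h6
    have h8 : 3 ^ (j - 1) - 1 ≠ 0 := by
      have : 3 ^ 1 ≤ 3 ^ (j - 1) := Nat.pow_le_pow_right (by norm_num) (by omega)
      omega
    have h9 := (padicValNat_dvd_iff_le h8).1 h7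
    rw [val_three hj0 hje] at h9
    omega

end Cfsg.Agent.H699.TPOrth
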