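import Cfsg.Agent.H699.TPOrthBase

/-!
# Block TP (S3536), orthogonal groups of even dimension: the elimination (helper699, task 3259; after H901/TOrthMain)
-/

set_option autoImplicit false
set_option linter.unusedSectionVars false

namespace Cfsg.Agent.H699.TPOrth

open QuadraticMap
open Cfsg.Agent.LieClassical.OrthCore Cfsg.Agent.LieClassical.OrthForms
open Cfsg.Agent.H182.Sign Cfsg.Agent.H403.Classify Cfsg.Agent.H182.Orth
open Cfsg.Agent.H94 Cfsg.Agent.H202.TP
open Cfsg.Agent.H901.TOrth (NCf pow_dvd_left pow_dvd_right exists_of_elt exists_of_eltP eltP_extend pow_two_of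
  mix_two mix_three not_even_pow pow_mod_three pow_mod_five pow_pred)

section

variable {F : Type*} [Field F] [Finite F] {ι : Type} [Fintype ι] [DecidableEq ι] {Q : QuadraticForm F (ι → F)}
  {n p q k : ℕ} {ε : ℤ}

theorem ncf (hQ : Sg Q n ε) (hn : 4 ≤ n) (h : TK p q k (Cfsg.POmega F ⇑Q)) {r : ℕ} (hr : r.Prime)
    (hrm : r ∣ mn q k) : NCf (Nat.card F) n r := by
  have hr2 := h.ne_two_of_dvd hrm
  have hc : ¬ PG.Conn (Cfsg.POmega F ⇑Q) 2 r := fun hc => not_conn h hrm hc.symm
  exact ⟨hr, hr2, fun h1 => hc (conn_two_of_dvd_card hQ hn hr hr2 h1),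
    fun i h1 h2 h3 => hc (conn_two_pow_sub hQ hn h1 h2 hr hr2 h3),
    fun i h1 h2 h3 => hc (conn_two_pow_add hQ hn h1 h2 hr hr2 h3)⟩

/-- The main principle for the element of a torus. -/
theorem eq_of_torus (h : TK p q k (Cfsg.POmega F ⇑Q)) {M c r : ℕ} {s : Cfsg.POmega F ⇑Q} (hM : M = 2 ^ c * orderOf s)
    (hr : r.Prime) (hrm : r ∣ mn q k) (hrM : r ∣ M)
    (hv : ∀ s i : ℕ, s.Prime → s ∣ mn q k → s ^ i ∣ Nat.card (Cfsg.POmega F ⇑Q) → s ^ i ∣ M) :
    orderOf s = mn q k := by
  have h2 : ∀ {t : ℕ}, t.Prime → t ∣ mn q k → ¬ t ∣ 2 ^ c := fun ht htm htd =>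
    h.ne_two_of_dvd htm ((Nat.prime_dvd_prime_iff_eq ht Nat.prime_two).1 (ht.dvd_of_dvd_pow htd))
  refine eq_of h hr hrm ?_ ⟨s, rfl⟩ ?_
  · rw [hM] at hrM
    exact ((Nat.Prime.dvd_mul hr).1 hrM).resolve_left (h2 hr hrm)
  · intro t i ht htm _ hi
    have h3 := hv t i ht htm hi
    rw [hM] at h3
    exact pow_dvd_right ht h3 (h2 ht htm)

end

section plus

variable {F : Type*} [Field F] [Finite F] {ι : Type} [Fintype ι] [DecidableEq ι] {Q : QuadraticForm F (ι → F)}
  {n p q k : ℕ}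

/-- The element of the torus of smaller exponent. -/
theorem sub_torus (hQ : Sg Q n 1 ∨ Sg Q n (-1)) (hn : 4 ≤ n) (h : TK p q k (Cfsg.POmega F ⇑Q)) (ho : Odd (Nat.card F))
    {i : ℕ} (hi : 1 ≤ i) (hin : i < n) (a : ℕ) (ha : 2 ^ a ∣ (Nat.card F ^ i - 1) / 2) : 2 ^ a ∣ mn q k - 1 := by
  have h1 : Elt F i 1 (Nat.card F ^ i - 1) := elt_tor_plus hi dvd_rfl
  have hE : ∃ s : Cfsg.POmega F ⇑Q, orderOf s = (Nat.card F ^ i - 1) / (Nat.card F ^ i - 1).gcd 2 := by
    rcases hQ with hQ | hQ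
    · exact Cfsg.Agent.H901.TOrth.exists_of_eltP hQ (by omega) (eltP_extend h1 (m := n) hin (Or.inl rfl) (Or.inl rfl))
    · exact Cfsg.Agent.H901.TOrth.exists_of_eltP hQ (by omega) (eltP_extend h1 (m := n) hin (Or.inl rfl) (Or.inr rfl))
  obtain ⟨s, hs⟩ := hE
  have h2 : (Nat.card F ^ i - 1).gcd 2 = 2 := by
    apply Nat.gcd_eq_right
    obtain ⟨b, hb⟩ := (ho.pow : Odd (Nat.card F ^ i))
    exact ⟨b, by omega⟩
  rw [h2] at hs
  exact h.two a s (by rw [hs]; exact ha)

theorem plus_false (hQ : Sg Q n 1) (hn : 4 ≤ n) {g : ℕ}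
    (hcard : g * Nat.card (Cfsg.POmega F ⇑Q) = Nat.card F ^ (n * (n - 1)) * (Nat.card F ^ n - 1) *
      ∏ i ∈ Finset.range (n - 1), (Nat.card F ^ (2 * (i + 1)) - 1))
    (h : TK p q k (Cfsg.POmega F ⇑Q)) : False := by
  have hu : 1 < Nat.card F := Finite.one_lt_card
  have hsub := fun ho i => @sub_torus F _ _ ι _ _ Q n p q k (Or.inl hQ) hn h ho i
  set u := Nat.card F with hudef
  have hodd := h.odd
  have h8 := h.mn_mod
  have hm2 := two_mn h.hk2 hodd
  have h3q := h.three_le
  have hge := h.mn_ge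
  obtain ⟨r₀, hr₀, hrm₀⟩ := exists_prime h
  -- the exponent
  obtain ⟨j, hjo, hj3, hjn, hR⟩ : ∃ j, Odd j ∧ 3 ≤ j ∧ (j = n ∨ j = n - 1) ∧
      ∀ r, r.Prime → r ∣ mn q k → r ∣ u ^ j - 1 := by
    have key : ∀ r, r.Prime → r ∣ mn q k → (Odd (n - 1) ∧ r ∣ u ^ (n - 1) - 1) ∨ (Odd n ∧ r ∣ u ^ n - 1) := by
      intro r hr hrm
      rcases plus_cases hQ hn hcard hr (h.ne_two_of_dvd hrm) (hrm.trans h.dvd_card) with h1 | ⟨h1, h2, -⟩ | h1
      · exact absurd h1.symm (not_conn h hrm)
      · exact Or.inl ⟨h1, h2⟩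
      · exact Or.inr h1
    rcases Nat.even_or_odd n with he | ho
    · refine ⟨n - 1, ?_, ?_, Or.inr rfl, fun r hr hrm => ?_⟩
      · obtain ⟨m, hm⟩ := he
        exact ⟨m - 1, by omega⟩
      · omega
      · rcases key r hr hrm with ⟨-, h1⟩ | ⟨h1, -⟩
        · exact h1
        · exact absurd he (Nat.not_even_iff_odd.2 h1)
    · refine ⟨n, ho, by omega, Or.inl rfl, fun r hr hrm => ?_⟩
      rcases key r hr hrm with ⟨h1, -⟩ | ⟨-, h1⟩
      · exfalso
        obtain ⟨a, ha⟩ := ho
        obtain ⟨b, hb⟩ := h1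
        omega
      · exact h1
  have hjle : j ≤ n := by omega
  have hv : ∀ s i : ℕ, s.Prime → s ∣ mn q k → s ^ i ∣ Nat.card (Cfsg.POmega F ⇑Q) → s ^ i ∣ u ^ j - 1 := by
    intro s i hs hsm hi
    have hN := ncf hQ hn h hs hsm
    have h1 := hN.pow_dvd hn hcard hi
    have hj := hR s hs hsm
    obtain ⟨x1, -, x3⟩ := hN.excl hu.le (by omega)
    rcases hjn with rfl | rfl
    · exact pow_dvd_left hs h1 (fun h2 => ((Nat.Prime.dvd_mul hs).1 h2).elim (x1 hj).2 (x1 hj).1)
    · exact pow_dvd_right hs (pow_dvd_right hs h1 (fun h2 => (x1 h2).1 hj)) (x3 hj)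
  -- the torus
  have hE : Elt F n 1 (u ^ j - 1) := by
    have h1 : Elt F j 1 (u ^ j - 1) := elt_tor_plus (by omega) dvd_rfl
    rcases hjn with rfl | rfl
    · exact h1
    · exact h1.extend (by omega) (Or.inl rfl) (Or.inl rfl)
  obtain ⟨s, c, hc, hs⟩ := exists_of_elt hQ (by omega) hE
  have hsm := eq_of_torus h hs hr₀ hrm₀ (hR r₀ hr₀ hrm₀) hv
  rw [hsm] at hs
  have huj : 1 ≤ u ^ j := Nat.one_le_pow _ _ (by omega)
  rcases Nat.even_or_odd u with he | ho
  · have h1 : 8 ∣ u ^ j := by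
      have h2 : 2 ^ 3 ∣ u ^ 3 := pow_dvd_pow_of_dvd he.two_dvd 3
      exact h2.trans (pow_dvd_pow u hj3)
    interval_cases c <;> omega
  · -- `u - 1` is a power of two
    have hprimes : ∀ r, r.Prime → r ∣ u - 1 → r = 2 := by
      intro r hr hrd
      by_contra hr2
      have h1 : r ∣ u ^ j - 1 := hrd.trans (by simpa using Nat.sub_dvd_pow_sub_pow u 1 j)
      rw [hs] at h1
      have hrm : r ∣ mn q k := ((Nat.Prime.dvd_mul hr).1 h1).resolve_left fun h2 =>
        hr2 ((Nat.prime_dvd_prime_iff_eq hr Nat.prime_two).1 (hr.dvd_of_dvd_pow h2))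
      exact (ncf hQ hn h hr hrm).sub 1 le_rfl (by omega) (by rwa [pow_one])
    obtain ⟨b, hb, hub⟩ := pow_two_of (w := u - 1) (c := c) (m := mn q k) (by omega) hprimes (by
      rw [← hs]
      simpa using Nat.sub_dvd_pow_sub_pow u 1 j) (mn_odd h)
    have hb2 : b = 1 ∨ b = 2 := by
      have hb0 : b ≠ 0 := by
        rintro rfl
        rw [pow_zero] at hub
        obtain ⟨a, ha⟩ := ho
        omega
      omega
    rcases hb2 with rfl | rfl
    · have hu3 : u = 3 := by omega
      rw [hu3] at hs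
      have h5 := pow_mod_three hjo
      have h6 : 2 * mn q k + 1 = 3 ^ j := by
        interval_cases c
        all_goals omega
      refine two_two hjo hj3 h.hk2 h6 hm2 fun i hi hij a ha => ?_
      exact hsub ho i hi (by omega) a (by rw [hu3]; exact ha)
    · have hu5 : u = 5 := by omega
      rw [hu5] at hs
      have h5 := pow_mod_five hjo
      have h6 : 4 * mn q k + 1 = 5 ^ j := by
        interval_cases c <;> omega
      have e : 5 ^ j = 5 * 5 ^ (j - 1) := pow_pred (by omega)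
      have h7 : 5 ^ 1 ≤ 5 ^ (j - 1) := Nat.pow_le_pow_right (by norm_num) (by omega)
      refine two_four (m := mn q k) (A := 5 ^ (j - 1) - 1) (c := 5) (by decide) (by omega) ?_ (by omega) fun a ha => ?_
      · simpa using Nat.sub_dvd_pow_sub_pow 5 1 (j - 1)
      · exact hsub ho (j - 1) (by omega) (by omega) a (by rw [hu5]; exact ha)

end plus

section minus

variable {F : Type*} [Field F] [Finite F] {ι : Type} [Fintype ι] [DecidableEq ι] {Q : QuadraticForm F (ι → F)}
  {n p q k : ℕ}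

theorem minus_false (hQ : Sg Q n (-1)) (hn : 4 ≤ n) (hpp : ∀ r s, r.Prime → s.Prime → r ∣ Nat.card F →
      s ∣ Nat.card F → r = s) {g : ℕ}
    (hcard : g * Nat.card (Cfsg.POmega F ⇑Q) = Nat.card F ^ (n * (n - 1)) * (Nat.card F ^ n + 1) *
      ∏ i ∈ Finset.range (n - 1), (Nat.card F ^ (2 * (i + 1)) - 1))
    (h : TK p q k (Cfsg.POmega F ⇑Q)) (hv : ¬ p ∣ Nat.card F) : False := by
  have hu : 1 < Nat.card F := Finite.one_lt_card
  have hsub := fun ho i => @sub_torus F _ _ ι _ _ Q n p q k (Or.inr hQ) hn h ho i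
  set u := Nat.card F with hudef
  have hodd := h.odd
  have h8 := h.mn_mod
  have hm2 := two_mn h.hk2 hodd
  have h3q := h.three_le
  have hge := h.mn_ge
  have hoddQ := h.odd_Q
  have hnine := h.nine_le_Q
  have hQ4 := pow_eq h.hk2 q
  obtain ⟨r₀, hr₀, hrm₀⟩ := exists_prime h
  -- `p` divides `q ^ 2 ^ k`
  have hpd : p ∣ q ^ 2 ^ k := h.dvd.trans (dvd_pow_self q (by positivity))
  have hR : ∀ r, r.Prime → r ∣ mn q k → (r ∣ u ^ (n - 1) + 1 ∧ u ≤ 3) ∨ r ∣ u ^ n + 1 := by
    intro r hr hrm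
    rcases minus_cases hQ hn hcard hr (h.ne_two_of_dvd hrm) (hrm.trans h.dvd_card) with h1 | h1 | h1
    · exact absurd h1.symm (not_conn h hrm)
    · exact Or.inl h1
    · exact Or.inr h1
  have hvA : ∀ s i : ℕ, s.Prime → s ∣ mn q k → s ∣ u ^ (n - 1) + 1 → s ^ i ∣ Nat.card (Cfsg.POmega F ⇑Q) →
      s ^ i ∣ u ^ (n - 1) + 1 := by
    intro s i hs hsm hA hi
    have hN := ncf hQ hn h hs hsm
    have h1 := hN.pow_dvd hn hcard hi
    obtain ⟨-, x2, x3⟩ := hN.excl hu.le (by omega)
    exact pow_dvd_left hs (pow_dvd_right hs h1 (fun h2 => (x2 h2).2 hA)) (fun h2 => x3 h2 hA)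
  have hvB : ∀ s i : ℕ, s.Prime → s ∣ mn q k → s ∣ u ^ n + 1 → s ^ i ∣ Nat.card (Cfsg.POmega F ⇑Q) →
      s ^ i ∣ u ^ n + 1 := by
    intro s i hs hsm hB hi
    have hN := ncf hQ hn h hs hsm
    have h1 := hN.pow_dvd hn hcard hi
    obtain ⟨-, x2, -⟩ := hN.excl hu.le (by omega)
    exact pow_dvd_left hs h1 (fun h2 => ((Nat.Prime.dvd_mul hs).1 h2).elim (x2 hB).2 (x2 hB).1)
  -- the two tori
  have hEA : Elt F (n - 1) (-1) (u ^ (n - 1) + 1) := elt_tor_minus (by omega) dvd_rfl
  obtain ⟨sA, hsA⟩ := Cfsg.Agent.H901.TOrth.exists_of_eltP hQ (by omega) (eltP_extend hEA (m := n) (by omega) (Or.inr rfl) (Or.inr rfl))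
  obtain ⟨sB, c, hc, hsB⟩ := exists_of_elt hQ (by omega) (elt_tor_minus (F := F) (k := n) (by omega) dvd_rfl)
  have hmodd := mn_odd h
  -- `A` odd or not
  have hA2 : ∃ d, d ≤ 1 ∧ u ^ (n - 1) + 1 = 2 ^ d * orderOf sA := by
    rcases Nat.even_or_odd (u ^ (n - 1) + 1) with he | ho
    · have h1 : (u ^ (n - 1) + 1).gcd 2 = 2 := Nat.gcd_eq_right he.two_dvd
      rw [h1] at hsA
      refine ⟨1, le_rfl, ?_⟩
      rw [hsA, pow_one]
      exact (Nat.mul_div_cancel' he.two_dvd).symm
    · have h1 : (u ^ (n - 1) + 1).gcd 2 = 1 := Nat.coprime_two_right.2 ho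
      rw [h1, Nat.div_one] at hsA
      exact ⟨0, by norm_num, by rw [hsA, pow_zero, one_mul]⟩
  obtain ⟨d, hd, hsA'⟩ := hA2
  by_cases hB : ∀ r, r.Prime → r ∣ mn q k → r ∣ u ^ n + 1
  · -- all primes divide `u ^ n + 1`
    have hsm := eq_of_torus h hsB hr₀ hrm₀ (hB r₀ hr₀ hrm₀) (fun s i hs hsm => hvB s i hs hsm (hB s hs hsm))
    change u ^ n + 1 = 2 ^ c * orderOf sB at hsB
    rw [hsm] at hsB
    have hwd : ∀ w, w ≠ 0 → w ∣ u ^ n + 1 → (∀ r, r.Prime → r ∣ mn q k → ¬ r ∣ w) → ∃ b, b ≤ c ∧ w = 2 ^ b := by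
      intro w hw hwd hwr
      refine pow_two_of hw (fun r hr hrd => ?_) (by rw [← hsB]; exact hwd) hmodd
      by_contra hr2
      have h1 := hrd.trans hwd
      rw [hsB] at h1
      exact hwr r hr (((Nat.Prime.dvd_mul hr).1 h1).resolve_left fun h2 =>
        hr2 ((Nat.prime_dvd_prime_iff_eq hr Nat.prime_two).1 (hr.dvd_of_dvd_pow h2))) hrd
    have hadd : Odd n → ∃ b, b ≤ c ∧ u + 1 = 2 ^ b := by
      intro hno
      refine hwd (u + 1) (by omega) (by simpa using hno.nat_add_dvd_pow_add_pow u 1) (fun r hr hrm hrd => ?_)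
      exact (ncf hQ hn h hr hrm).add 1 le_rfl (by omega) (by rwa [pow_one])
    rcases Nat.even_or_odd u with he | ho
    · have h1 : Even (u ^ n) := he.pow_of_ne_zero (by omega)
      have hc0 : c = 0 := by
        obtain ⟨a, ha⟩ := h1
        obtain ⟨b, hb⟩ := hmodd
        interval_cases c <;> omega
      subst hc0
      exact not_even_pow hoddQ (by omega) (fun r hr hrd => hpp r 2 hr Nat.prime_two hrd he.two_dvd) (t := n)
        (by rw [hQ4]; omega)
    · have h1 : Odd (u ^ n) := ho.pow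
      have hc12 : c = 1 ∨ c = 2 := by
        obtain ⟨a, ha⟩ := h1
        have : c ≠ 0 := by
          rintro rfl
          obtain ⟨b, hb⟩ := hmodd
          omega
        omega
      rcases hc12 with rfl | rfl
      · have h2 : u ^ n = q ^ 2 ^ k := by omega
        rw [← h2] at hpd
        exact hv (h.prime.dvd_of_dvd_pow hpd)
      · have hno : Odd n := by
          rw [← Nat.not_even_iff_odd]
          rintro ⟨a, ha⟩
          have h2 : (u ^ 2) % 4 = 1 := by
            obtain ⟨x, hx⟩ := ho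
            rw [hx]
            have : (2 * x + 1) ^ 2 = 4 * (x ^ 2 + x) + 1 := by ring
            omega
          have h3 : u ^ n % 4 = 1 := by
            rw [ha, ← two_mul, pow_mul, Nat.pow_mod, h2]
            norm_num
          omega
        obtain ⟨b, hb, hub⟩ := hadd hno
        have hu3 : u = 3 := by
          interval_cases b <;> omega
        rw [hu3] at hsB
        have h2 : 3 ^ n + 1 = 4 * mn q k := by omega
        have e : 3 ^ n = 3 * 3 ^ (n - 1) := pow_pred (by omega)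
        have h7 : 3 ^ 1 ≤ 3 ^ (n - 1) := Nat.pow_le_pow_right (by norm_num) (by omega)
        refine two_four (m := mn q k) (A := 3 ^ (n - 1) - 1) (c := 3) (by decide) (by omega) ?_ (by omega)
          fun a ha => ?_
        · -- `n - 1` is even
          obtain ⟨l, hl⟩ := hno
          have h9 : 3 ^ (n - 1) = 9 ^ l := by
            rw [show n - 1 = 2 * l by omega, pow_mul]
            norm_num
          rw [h9]
          exact (show (4 : ℕ) ∣ 9 - 1 by norm_num).trans (by simpa using Nat.sub_dvd_pow_sub_pow 9 1 l)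
        · exact hsub ho (n - 1) (by omega) (by omega) a (by rw [hu3]; exact ha)
  · -- some prime divides `u ^ (n - 1) + 1`, and `u ≤ 3`
    push Not at hB
    obtain ⟨r₁, hr₁, hrm₁, hr₁B⟩ := hB
    obtain ⟨hr₁A, hu3⟩ := (hR r₁ hr₁ hrm₁).resolve_right hr₁B
    have two_of : ∀ {r t : ℕ}, r.Prime → r ∣ mn q k → ¬ r ∣ 2 ^ t := fun hr hrm h1 =>
      h.ne_two_of_dvd hrm ((Nat.prime_dvd_prime_iff_eq hr Nat.prime_two).1 (hr.dvd_of_dvd_pow h1))
    have hAm : orderOf sA ∣ mn q k := by
      refine h.iso r₁ sA hr₁ hrm₁ ?_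
      rw [hsA'] at hr₁A
      exact ((Nat.Prime.dvd_mul hr₁).1 hr₁A).resolve_left (two_of hr₁ hrm₁)
    have hAodd : Odd (orderOf sA) := Odd.of_dvd_nat hmodd hAm
    by_cases hA : ∀ r, r.Prime → r ∣ mn q k → r ∣ u ^ (n - 1) + 1
    · have hsm := eq_of_torus h hsA' hr₀ hrm₀ (hA r₀ hr₀ hrm₀) (fun s i hs hsm => hvA s i hs hsm (hA s hs hsm))
      rw [hsm] at hsA'
      obtain hu2 | hu3 : u = 2 ∨ u = 3 := by omega
      · have h1 : Even (u ^ (n - 1)) := by
          rw [hu2]
          exact even_two.pow_of_ne_zero (by omega)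
        have hd0 : d = 0 := by
          obtain ⟨a, ha⟩ := h1
          interval_cases d <;> omega
        subst hd0
        exact not_even_pow hoddQ (by omega) (fun r hr hrd => hpp r 2 hr Nat.prime_two hrd (by rw [hu2]))
          (t := n - 1) (by rw [hQ4]; omega)
      · have h1 : Odd (u ^ (n - 1)) := Odd.pow (by rw [hu3]; decide)
        have hd1 : d = 1 := by
          obtain ⟨a, ha⟩ := h1
          interval_cases d <;> omega
        subst hd1
        have h2 : u ^ (n - 1) = q ^ 2 ^ k := by omega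
        rw [← h2] at hpd
        exact hv (h.prime.dvd_of_dvd_pow hpd)
    · push Not at hA
      obtain ⟨r₂, hr₂, hrm₂, hr₂A⟩ := hA
      have hr₂B : r₂ ∣ u ^ n + 1 := (hR r₂ hr₂ hrm₂).resolve_left fun h1 => hr₂A h1.1
      change u ^ n + 1 = 2 ^ c * orderOf sB at hsB
      have hBm : orderOf sB ∣ mn q k := by
        refine h.iso r₂ sB hr₂ hrm₂ ?_
        rw [hsB] at hr₂B
        exact ((Nat.Prime.dvd_mul hr₂).1 hr₂B).resolve_left (two_of hr₂ hrm₂)
      have hBodd : Odd (orderOf sB) := Odd.of_dvd_nat hmodd hBm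
      have hcop : Nat.Coprime (orderOf sA) (orderOf sB) := by
        rw [Nat.coprime_iff_gcd_eq_one]
        by_contra hne
        obtain ⟨t, ht, htd⟩ := Nat.exists_prime_and_dvd hne
        have ht1 := htd.trans (Nat.gcd_dvd_left _ _)
        have ht2 := htd.trans (Nat.gcd_dvd_right _ _)
        have htm := ht1.trans hAm
        obtain ⟨-, x2, -⟩ := (ncf hQ hn h ht htm).excl hu.le (by omega)
        refine (x2 ?_).2 ?_
        · change t ∣ u ^ n + 1
          rw [hsB]
          exact ht2.mul_left _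
        · change t ∣ u ^ (n - 1) + 1
          rw [hsA']
          exact ht1.mul_left _
      have hm0 : mn q k ≠ 0 := by omega
      have hmul : mn q k = orderOf sA * orderOf sB := by
        apply Nat.dvd_antisymm
        · rw [← Nat.factorization_prime_le_iff_dvd hm0 (Nat.mul_ne_zero hAodd.pos.ne' hBodd.pos.ne')]
          intro t ht
          by_cases htm : t ∣ mn q k
          · have h1 : t ^ (mn q k).factorization t ∣ mn q k := Nat.ordProj_dvd _ _
            rw [← ht.pow_dvd_iff_le_factorization (Nat.mul_ne_zero hAodd.pos.ne' hBodd.pos.ne')]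
            rcases hR t ht htm with ⟨h2, -⟩ | h2
            · have h3 := hvA t _ ht htm h2 (h1.trans h.dvd_card)
              rw [hsA'] at h3
              exact (pow_dvd_right ht h3 (two_of ht htm)).mul_right _
            · have h3 := hvB t _ ht htm h2 (h1.trans h.dvd_card)
              rw [hsB] at h3
              exact (pow_dvd_right ht h3 (two_of ht htm)).mul_left _
          · rw [Nat.factorization_eq_zero_of_not_dvd htm]
            exact Nat.zero_le _
        · exact hcop.mul_dvd_of_dvd_of_dvd hAm hBm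
      have hpn := pow_pred (a := u) (n := n) (by omega)
      obtain hu2 | hu3 : u = 2 ∨ u = 3 := by omega
      · rw [hu2] at hsA' hsB hpn
        have h1 : Even (2 ^ (n - 1)) := even_two.pow_of_ne_zero (by omega)
        have h2 : Even (2 ^ n) := even_two.pow_of_ne_zero (by omega)
        have hd0 : d = 0 := by
          obtain ⟨a, ha⟩ := h1
          obtain ⟨b, hb⟩ := hAodd
          interval_cases d <;> omega
        have hc0 : c = 0 := by
          obtain ⟨a, ha⟩ := h2
          obtain ⟨b, hb⟩ := hBodd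
          interval_cases c <;> omega
        subst hd0 hc0
        rw [pow_zero, one_mul] at hsA' hsB
        refine mix_two (q := q ^ 2 ^ (k - 2)) (t := 2 ^ (n - 1)) ?_ (by positivity)
        rw [← hpn, hsA', hsB, ← hmul, hm2, hQ4]
      · rw [hu3] at hsA' hsB hpn
        have h1 : Odd (3 ^ (n - 1)) := Odd.pow (by decide)
        have hd1 : d = 1 := by
          obtain ⟨a, ha⟩ := h1
          obtain ⟨b, hb⟩ := hAodd
          interval_cases d <;> omega
        subst hd1
        have hne : Even (n - 1) := by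
          rw [← Nat.not_odd_iff_even]
          intro hno
          have := pow_mod_three hno
          obtain ⟨b, hb⟩ := hAodd
          omega
        have hno : Odd n := by
          obtain ⟨a, ha⟩ := hne
          exact ⟨a, by omega⟩
        have h4 := pow_mod_three hno
        have hc2 : c = 2 := by
          obtain ⟨b, hb⟩ := hBodd
          interval_cases c <;> omega
        subst hc2
        refine mix_three (q := q ^ 2 ^ (k - 2)) (t := 3 ^ (n - 1)) ?_ ?_
        · rw [← hpn, hsA', hsB]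
          calc 2 ^ 1 * orderOf sA * (2 ^ 2 * orderOf sB) = 4 * (2 * (orderOf sA * orderOf sB)) := by ring
            _ = 4 * ((q ^ 2 ^ (k - 2)) ^ 4 + 1) := by rw [← hmul, hm2, hQ4]
        · exact pow_dvd_pow 3 (show 2 ≤ n - 1 by omega)

end minus

end Cfsg.Agent.H699.TPOrth
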