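import Mathlib
import Cfsg.Agent.GpLn.Rank
import Cfsg.Agent.H352.L43.GLThree

/-!
# Groups of order prime to three acting on abelian 3-groups with a cyclic subgroup of index nine

* `core`: an invariant elementary abelian subgroup of order nine with cyclic quotient gives an element
  with trivial stabilizer or stabilizer generated by a reflection.
-/

set_option autoImplicit false
set_option linter.unusedSectionVars false

namespace Cfsg.Agent.H699.ThreeAct

open Subgroup

variable {V : Type*} [CommGroup V] [Finite V]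

/-- the stabilizer of `u` in `A` -/
def Stb (A : Subgroup (MulAut V)) (u : V) : Subgroup (MulAut V) where
  carrier := {s | s ∈ A ∧ s u = u}
  one_mem' := ⟨A.one_mem, rfl⟩
  mul_mem' := by
    rintro a b ⟨ha, ha'⟩ ⟨hb, hb'⟩
    exact ⟨A.mul_mem ha hb, by rw [MulAut.mul_apply, hb', ha']⟩
  inv_mem' := by
    rintro a ⟨ha, ha'⟩
    refine ⟨A.inv_mem ha, ?_⟩
    conv_lhs => rw [← ha']
    exact MulAut.inv_apply_self V a u

theorem mem_Stb {A : Subgroup (MulAut V)} {u : V} {s : MulAut V} : s ∈ Stb A u ↔ s ∈ A ∧ s u = u :=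
  Iff.rfl

/-- The conclusion. -/
def Good (A : Subgroup (MulAut V)) : Prop :=
  ∃ v : V, Stb A v = ⊥ ∨ (Nat.card (Stb A v) = 2 ∧
    3 * Nat.card {x : V // ∀ s ∈ Stb A v, s x = x} = Nat.card V)

theorem eq_one_of_pow (hV : IsPGroup 3 V) {m : ℕ} (hm : ¬ 3 ∣ m) {c : V} (h : c ^ m = 1) : c = 1 := by
  obtain ⟨k, hk⟩ := hV c
  have h1 : orderOf c ∣ m := orderOf_dvd_of_pow_eq_one h
  have h2 : orderOf c ∣ 3 ^ k := orderOf_dvd_of_pow_eq_one hk
  obtain ⟨j, -, hj⟩ := (Nat.dvd_prime_pow Nat.prime_three).1 h2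
  rcases Nat.eq_zero_or_pos j with rfl | hj0
  · rw [pow_zero, orderOf_eq_one_iff] at hj
    exact hj
  · exfalso
    rw [hj] at h1
    exact hm ((dvd_pow_self 3 hj0.ne').trans h1)

instance instFiniteMulAut : Finite (MulAut V) :=
  Finite.of_injective (fun a : MulAut V => (a : V → V)) fun _ _ h => MulEquiv.ext (congrFun h)

/-- An automorphism trivial on `W` and on `V/W` is trivial. -/
theorem eq_one_of_triv (hV : IsPGroup 3 V) {A : Subgroup (MulAut V)} (hA : ¬ 3 ∣ Nat.card A)
    {a : MulAut V} (ha : a ∈ A) (W : Subgroup V) (h1 : ∀ w ∈ W, a w = w)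
    (h2 : ∀ x, a x * x⁻¹ ∈ W) : a = 1 := by
  ext x
  have h3 : ∀ n : ℕ, (a ^ n) x = (a x * x⁻¹) ^ n * x := by
    intro n
    induction n with
    | zero => simp
    | succ n ih =>
      rw [pow_succ', MulAut.mul_apply, ih, map_mul, map_pow, h1 _ (h2 x), pow_succ]
      group
  have h4 : a ^ Nat.card A = 1 := by
    have := pow_card_eq_one' (x := (⟨a, ha⟩ : A))
    exact congrArg Subtype.val this
  have h5 := h3 (Nat.card A)
  rw [h4, MulAut.one_apply] at h5
  have h6 : (a x * x⁻¹) ^ Nat.card A = 1 := by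
    exact (right_eq_mul.1 h5)
  have h7 := eq_one_of_pow hV hA h6
  rw [MulAut.one_apply]
  exact mul_inv_eq_one.1 h7

/-- Lifting of fixed points. -/
theorem exists_lift (hV : IsPGroup 3 V) {B : Subgroup (MulAut V)} (hB : ¬ 3 ∣ Nat.card B)
    (W : Subgroup V) (h2 : ∀ b ∈ B, ∀ x, b x * x⁻¹ ∈ W) (x : V) :
    ∃ z, z * x⁻¹ ∈ W ∧ ∀ b ∈ B, b z = z := by
  classical
  have := Fintype.ofFinite B
  set y : V := ∏ b : B, (b : MulAut V) x with hy
  have hyfix : ∀ b ∈ B, b y = y := by
    intro c hc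
    rw [hy, map_prod]
    refine Fintype.prod_equiv (Equiv.mulLeft (⟨c, hc⟩ : B)) _ _ fun b => ?_
    rfl
  have hyW : y * (x ^ Nat.card B)⁻¹ ∈ W := by
    have : y * (x ^ Nat.card B)⁻¹ = ∏ b : B, ((b : MulAut V) x * x⁻¹) := by
      rw [Finset.prod_mul_distrib, Finset.prod_const, Finset.card_univ, Nat.card_eq_fintype_card,
        inv_pow]
    rw [this]
    exact W.prod_mem fun b _ => h2 b b.2 x
  obtain ⟨n, hn⟩ := hV.exists_card_eq
  have hcop : IsCoprime (Nat.card B : ℤ) (Nat.card V : ℤ) := by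
    rw [Nat.isCoprime_iff_coprime, hn]
    exact Nat.Coprime.pow_right _ ((Nat.Prime.coprime_iff_not_dvd Nat.prime_three).2 hB).symm
  obtain ⟨a, b, hab⟩ := hcop
  refine ⟨y ^ a, ?_, fun c hc => by rw [map_zpow, hyfix c hc]⟩
  have hx : x = (x ^ Nat.card B) ^ a := by
    conv_lhs => rw [← zpow_one x, ← hab, zpow_add]
    rw [mul_comm b, zpow_mul x (Nat.card V : ℤ) b, zpow_natCast, pow_card_eq_one', one_zpow, mul_one,
      mul_comm a, zpow_mul, zpow_natCast]
  have h3 : y ^ a * x⁻¹ = (y * (x ^ Nat.card B)⁻¹) ^ a := by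
    conv_lhs => rw [hx]
    rw [mul_zpow, inv_zpow]
  rw [h3]
  exact W.zpow_mem hyW a

theorem exists_ne_one_of_ne_bot {G : Type*} [Group G] {H : Subgroup G} (h : H ≠ ⊥) : ∃ x ∈ H, x ≠ 1 := by
  by_contra hcon
  push Not at hcon
  exact h ((Subgroup.eq_bot_iff_forall H).2 hcon)

/-- In a group of order three two nontrivial elements are equal or inverse. -/
theorem eq_or_inv_of_card_three {Q : Type*} [Group Q] (hQ : Nat.card Q = 3) {q r : Q} (hq : q ≠ 1)
    (hr : r ≠ 1) : r = q ∨ r * q = 1 := by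
  have : Fact (Nat.Prime 3) := ⟨Nat.prime_three⟩
  have h1 : r ∈ Submonoid.powers q := mem_powers_of_prime_card hQ hq
  have h3 : q ^ 3 = 1 := by rw [← hQ]; exact pow_card_eq_one'
  obtain ⟨n, rfl⟩ := h1
  have h2 : q ^ n = q ^ (n % 3) := by
    conv_lhs => rw [← Nat.div_add_mod n 3, pow_add, pow_mul, h3, one_pow, one_mul]
  simp only at hr ⊢
  rw [h2] at hr ⊢
  have h4 : n % 3 < 3 := Nat.mod_lt _ (by norm_num)
  interval_cases n % 3
  · exact absurd (pow_zero q) hr
  · exact Or.inl (pow_one q)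
  · right
    rw [← pow_succ, h3]

/-- the fixed points of the stabilizer -/
def fixSub (A : Subgroup (MulAut V)) (v : V) : Subgroup V where
  carrier := {x | ∀ s ∈ Stb A v, s x = x}
  one_mem' := fun s _ => map_one s
  mul_mem' := by
    intro a b ha hb s hs
    rw [map_mul, ha s hs, hb s hs]
  inv_mem' := by
    intro a ha s hs
    rw [map_inv, ha s hs]

theorem mem_fixSub {A : Subgroup (MulAut V)} {v x : V} : x ∈ fixSub A v ↔ ∀ s ∈ Stb A v, s x = x :=
  Iff.rfl

theorem good_of_index (hV : IsPGroup 3 V) {A : Subgroup (MulAut V)} (hA : ¬ 3 ∣ Nat.card A) {v : V}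
    (hidx : (fixSub A v).index ∣ 3) : Good A := by
  classical
  refine ⟨v, ?_⟩
  by_cases hbot : Stb A v = ⊥
  · exact Or.inl hbot
  right
  obtain ⟨s0, hs0, hs01⟩ := exists_ne_one_of_ne_bot hbot
  set F := fixSub A v with hF
  have h3 : F.index = 3 := by
    rcases (Nat.dvd_prime Nat.prime_three).1 hidx with h | h
    · exfalso
      rw [Subgroup.index_eq_one] at h
      apply hs01
      ext x
      have : x ∈ F := by rw [h]; trivial
      exact this s0 hs0
    · exact h
  have hcardF : 3 * Nat.card F = Nat.card V := by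
    rw [← h3, mul_comm]; exact F.card_mul_index
  have hQ : Nat.card (V ⧸ F) = 3 := h3
  -- an element outside `F`
  obtain ⟨y, hy⟩ : ∃ y, y ∉ F := by
    by_contra hcon
    push Not at hcon
    have : F = ⊤ := by
      rw [eq_top_iff]; intro x _; exact hcon x
    rw [this, Subgroup.index_top] at h3
    omega
  have hyq : (QuotientGroup.mk y : V ⧸ F) ≠ 1 := by
    intro h
    exact hy ((QuotientGroup.eq_one_iff y).1 h)
  have hgenF : ∀ x : V, ∃ n : ℤ, x * (y ^ n)⁻¹ ∈ F := by
    intro x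
    have : Fact (Nat.Prime 3) := ⟨Nat.prime_three⟩
    have h1 : (QuotientGroup.mk x : V ⧸ F) ∈ Subgroup.zpowers (QuotientGroup.mk y : V ⧸ F) :=
      mem_zpowers_of_prime_card hQ hyq
    obtain ⟨n, hn⟩ := h1
    refine ⟨n, ?_⟩
    rw [← QuotientGroup.eq_one_iff]
    simp only at hn
    rw [QuotientGroup.mk_mul, QuotientGroup.mk_inv, QuotientGroup.mk_zpow, hn, mul_inv_cancel]
  -- an element of the stabilizer acting trivially on `V / F` is trivial
  have key : ∀ s ∈ Stb A v, s y * y⁻¹ ∈ F → s = 1 := by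
    intro s hs h
    refine eq_one_of_triv hV hA hs.1 F (fun w hw => hw s hs) fun x => ?_
    obtain ⟨n, hn⟩ := hgenF x
    have h1 : s x * x⁻¹ = (s y * y⁻¹) ^ n := by
      have h2 := hn s hs
      rw [map_mul, map_inv, map_zpow] at h2
      have h4 : s x = x * (y ^ n)⁻¹ * (s y) ^ n := by
        rw [← h2]; group
      rw [h4, mul_zpow, inv_zpow]
      calc x * (y ^ n)⁻¹ * s y ^ n * x⁻¹ = (x * x⁻¹) * (s y ^ n * (y ^ n)⁻¹) := by
            simp only [mul_assoc, mul_comm, mul_left_comm]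
        _ = _ := by rw [mul_inv_cancel, one_mul]
    rw [h1]
    exact F.zpow_mem h n
  have key2 : ∀ s ∈ Stb A v, s ≠ 1 → s y * y ∈ F := by
    intro s hs hs1
    have hsy : s y ∉ F := by
      intro h
      have h1 := h s⁻¹ ((Stb A v).inv_mem hs)
      rw [MulAut.inv_apply_self] at h1
      rw [← h1] at h
      exact hy h
    have hsyq : (QuotientGroup.mk (s y) : V ⧸ F) ≠ 1 := by
      intro h
      exact hsy ((QuotientGroup.eq_one_iff _).1 h)
    rcases eq_or_inv_of_card_three hQ hyq hsyq with h | h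
    · exfalso
      apply hs1
      apply key s hs
      rw [← QuotientGroup.eq_one_iff, QuotientGroup.mk_mul, QuotientGroup.mk_inv, h, mul_inv_cancel]
    · rw [← QuotientGroup.eq_one_iff, QuotientGroup.mk_mul, h]
  have key3 : ∀ s ∈ Stb A v, s ≠ 1 → ∀ t ∈ Stb A v, t ≠ 1 → s * t = 1 := by
    intro s hs hs1 t ht ht1
    have h1 := key2 s hs hs1
    have h2 := key2 t ht ht1
    refine key (s * t) ((Stb A v).mul_mem hs ht) ?_
    have h3 : s (t y * y) = t y * y := h2 s hs
    rw [map_mul] at h3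
    rw [MulAut.mul_apply]
    have h4 : s (t y) * y⁻¹ = (t y * y) * (s y * y)⁻¹ := by
      rw [← h3]
      rw [mul_inv_rev]
      calc s (t y) * y⁻¹ = s (t y) * (s y * (s y)⁻¹) * y⁻¹ := by rw [mul_inv_cancel, mul_one]
        _ = _ := by simp only [mul_assoc, mul_comm, mul_left_comm]
    rw [h4]
    exact F.mul_mem h2 (F.inv_mem h1)
  refine ⟨?_, ?_⟩
  · have hset : ((Stb A v : Subgroup (MulAut V)) : Set (MulAut V)) = {1, s0} := by
      ext t
      simp only [SetLike.mem_coe, Set.mem_insert_iff, Set.mem_singleton_iff]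
      constructor
      · intro ht
        by_cases ht1 : t = 1
        · exact Or.inl ht1
        · right
          have h1 := key3 s0 hs0 hs01 s0 hs0 hs01
          have h2 := key3 s0 hs0 hs01 t ht ht1
          rw [← h1] at h2
          exact mul_left_cancel h2
      · rintro (rfl | rfl)
        · exact (Stb A v).one_mem
        · exact hs0
    have h1 : Nat.card (Stb A v) = Nat.card ((Stb A v : Subgroup (MulAut V)) : Set (MulAut V)) := rfl
    rw [h1, hset, Nat.card_coe_set_eq, Set.ncard_pair (Ne.symm hs01)]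
  · exact hcardF

/-- The main step. -/
theorem core (hV : IsPGroup 3 V) {A : Subgroup (MulAut V)} (hA : ¬ 3 ∣ Nat.card A) {W : Subgroup V}
    (hinv : ∀ a ∈ A, ∀ w ∈ W, a w ∈ W) (hW9 : Nat.card W = 9) (hW3 : ∀ w ∈ W, w ^ 3 = 1) {x0 : V}
    (hgen : ∀ y, ∃ n : ℤ, y * (x0 ^ n)⁻¹ ∈ W) : Good A := by
  classical
  -- the kernel on `V / W`
  let A1 : Subgroup (MulAut V) :=
    { carrier := {a | a ∈ A ∧ ∀ x, a x * x⁻¹ ∈ W}
      one_mem' := ⟨A.one_mem, fun x => by simp⟩
      mul_mem' := by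
        rintro a b ⟨ha, ha'⟩ ⟨hb, hb'⟩
        refine ⟨A.mul_mem ha hb, fun x => ?_⟩
        have := W.mul_mem (ha' (b x)) (hb' x)
        rwa [mul_assoc, inv_mul_cancel_left, ← MulAut.mul_apply] at this
      inv_mem' := by
        rintro a ⟨ha, ha'⟩
        refine ⟨A.inv_mem ha, fun x => ?_⟩
        have := W.inv_mem (ha' (a⁻¹ x))
        rwa [MulAut.apply_inv_self, mul_inv_rev, inv_inv] at this }
  have hA1le : A1 ≤ A := fun a ha => ha.1
  have hA1 : ¬ 3 ∣ Nat.card A1 := fun h => hA (h.trans (Subgroup.card_dvd_of_le hA1le))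
  obtain ⟨z, hzW, hzfix⟩ := exists_lift hV hA1 W (fun b hb => hb.2) x0
  have hW1 : W ≠ ⊥ := by
    intro h
    rw [h, Subgroup.card_bot] at hW9
    omega
  obtain ⟨w, hw, hw1⟩ := exists_ne_one_of_ne_bot hW1
  have hgenz : ∀ y, ∃ n : ℤ, y * (z ^ n)⁻¹ ∈ W := by
    intro y
    obtain ⟨n, hn⟩ := hgen y
    refine ⟨n, ?_⟩
    have h1 : y * (z ^ n)⁻¹ = (y * (x0 ^ n)⁻¹) * ((z * x0⁻¹) ^ n)⁻¹ := by
      rw [mul_zpow, mul_inv_rev, inv_zpow, inv_inv, mul_assoc, inv_mul_cancel_left]
    rw [h1]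
    exact W.mul_mem hn (W.inv_mem (W.zpow_mem hzW n))
  have hgenv : ∀ y, ∃ n : ℤ, y * ((z * w) ^ n)⁻¹ ∈ W := by
    intro y
    obtain ⟨n, hn⟩ := hgenz y
    refine ⟨n, ?_⟩
    have h1 : y * ((z * w) ^ n)⁻¹ = (y * (z ^ n)⁻¹) * (w ^ n)⁻¹ := by
      rw [mul_zpow, mul_inv_rev, mul_assoc, mul_comm (z ^ n)⁻¹]
    rw [h1]
    exact W.mul_mem hn (W.inv_mem (W.zpow_mem hw n))
  -- stabilizer
  have hStb : ∀ s ∈ Stb A (z * w), s z = z ∧ s w = w := by
    intro s hs
    have hsA1 : s ∈ A1 := by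
      refine ⟨hs.1, fun x => ?_⟩
      obtain ⟨n, hn⟩ := hgenv x
      have h1 : s x * x⁻¹ = s (x * ((z * w) ^ n)⁻¹) * (x * ((z * w) ^ n)⁻¹)⁻¹ := by
        rw [map_mul, map_inv, map_zpow, hs.2, mul_inv_rev, inv_inv, mul_assoc, inv_mul_cancel_left]
      rw [h1]
      exact W.mul_mem (hinv s hs.1 _ hn) (W.inv_mem hn)
    have h1 := hzfix s hsA1
    refine ⟨h1, ?_⟩
    have h2 := hs.2
    rw [map_mul, h1] at h2
    exact mul_left_cancel h2
  -- an element of `W` outside `⟨w⟩`
  have hwcard : Nat.card (zpowers w) = 3 := by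
    rw [Nat.card_zpowers]
    exact orderOf_eq_prime (hW3 w hw) hw1
  have hwW : zpowers w ≤ W := by rwa [Subgroup.zpowers_le]
  obtain ⟨y0, hy0, hy0w⟩ : ∃ y0 ∈ W, y0 ∉ zpowers w := by
    by_contra hcon
    push Not at hcon
    have h1 : W ≤ zpowers w := hcon
    have h2 := Subgroup.card_le_of_le h1
    omega
  have hWle : W ≤ zpowers w ⊔ zpowers y0 := by
    have h1 : zpowers w ⊔ zpowers y0 ≤ W := sup_le hwW (by rwa [Subgroup.zpowers_le])
    have h2 : Nat.card (zpowers w ⊔ zpowers y0 : Subgroup V) ∣ 9 := by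
      rw [← hW9]; exact Subgroup.card_dvd_of_le h1
    have h3 : 3 < Nat.card (zpowers w ⊔ zpowers y0 : Subgroup V) := by
      rw [← hwcard]
      have h4 : zpowers w < zpowers w ⊔ zpowers y0 := by
        refine lt_of_le_of_ne le_sup_left fun h => hy0w ?_
        rw [h]
        exact (le_sup_right : zpowers y0 ≤ zpowers w ⊔ zpowers y0) (Subgroup.mem_zpowers y0)
      exact Set.Finite.card_lt_card (Set.toFinite _) h4
    have h5 : Nat.card (zpowers w ⊔ zpowers y0 : Subgroup V) = 9 := by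
      have h6 : (9 : ℕ) = 3 ^ 2 := by norm_num
      rw [h6] at h2
      obtain ⟨k, hk, hk2⟩ := (Nat.dvd_prime_pow Nat.prime_three).1 h2
      rw [hk2] at h3 ⊢
      interval_cases k <;> omega
    exact (Subgroup.eq_of_le_of_card_ge h1 (by omega)).ge
  set C : Subgroup V := zpowers z ⊔ zpowers w with hC
  have hCfix : C ≤ fixSub A (z * w) := by
    rw [hC]
    refine sup_le ?_ ?_
    · rw [Subgroup.zpowers_le]
      exact fun s hs => (hStb s hs).1
    · rw [Subgroup.zpowers_le]
      exact fun s hs => (hStb s hs).2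
  have htop : zpowers y0 ⊔ C = ⊤ := by
    rw [eq_top_iff]
    intro x _
    obtain ⟨n, hn⟩ := hgenz x
    have h1 : x = x * (z ^ n)⁻¹ * z ^ n := by group
    rw [h1]
    refine Subgroup.mul_mem _ ?_ ?_
    · have h2 := hWle hn
      refine (sup_le ?_ ?_ : zpowers w ⊔ zpowers y0 ≤ zpowers y0 ⊔ C) h2
      · exact le_trans (le_sup_right : zpowers w ≤ C) le_sup_right
      · exact le_sup_left
    · exact (le_sup_right : C ≤ zpowers y0 ⊔ C) ((le_sup_left : zpowers z ≤ C)
        (Subgroup.zpow_mem _ (Subgroup.mem_zpowers z) n))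
  have hCidx : C.index ∣ 3 := by
    have h1 : C.relIndex (zpowers y0 ⊔ C) = C.relIndex (zpowers y0) := Subgroup.relIndex_sup_right _ _
    rw [htop, Subgroup.relIndex_top_right] at h1
    rw [h1]
    have h2 : C.relIndex (zpowers y0) ∣ Nat.card (zpowers y0) := Subgroup.relIndex_dvd_card _ _
    refine h2.trans ?_
    rw [Nat.card_zpowers]
    exact orderOf_dvd_of_pow_eq_one (hW3 y0 hy0)
  exact good_of_index hV hA ((Subgroup.index_dvd_of_le hCfix).trans hCidx)

/-- Maschke's theorem in multiplicative form. -/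
theorem exists_complement {A : Subgroup (MulAut V)} (hA : ¬ 3 ∣ Nat.card A) {E T : Subgroup V}
    (hE3 : ∀ x ∈ E, x ^ 3 = 1) (hE : ∀ a ∈ A, ∀ x ∈ E, a x ∈ E) (hT : ∀ a ∈ A, ∀ x ∈ T, a x ∈ T) :
    ∃ W ≤ E, (∀ a ∈ A, ∀ x ∈ W, a x ∈ W) ∧ (∀ x ∈ W, x ∈ T → x = 1) ∧
      ∀ x ∈ E, ∃ t ∈ T, ∃ w ∈ W, x = t * w := by
  have hp : Fact (Nat.Prime 3) := ⟨Nat.prime_three⟩
  let _ : Module (ZMod 3) (Additive E) := AddCommGroup.zmodModule (n := 3) (by
    intro x
    exact Subtype.ext (hE3 _ (Additive.toMul x).2))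
  let φ : A →* (Additive E →ₗ[ZMod 3] Additive E) :=
    { toFun := fun a => AddMonoidHom.toZModLinearMap 3
        { toFun := fun x : Additive E =>
            (Additive.ofMul ⟨a.1 (Additive.toMul x).1, hE a.1 a.2 _ (Additive.toMul x).2⟩ : Additive E)
          map_zero' := by
            apply Subtype.ext
            exact map_one a.1
          map_add' := by
            intro x y
            apply Subtype.ext
            exact map_mul a.1 _ _ }
      map_one' := rfl
      map_mul' := fun a b => rfl }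
  have hφ : ∀ (a : A) (x : E), φ a (Additive.ofMul x) = Additive.ofMul ⟨a.1 x.1, hE a.1 a.2 _ x.2⟩ :=
    fun a x => rfl
  let T' : Submodule (ZMod 3) (Additive E) :=
    AddSubgroup.toZModSubmodule 3 (Subgroup.toAddSubgroup (T.subgroupOf E))
  have hT' : ∀ x : E, Additive.ofMul x ∈ T' ↔ (x : V) ∈ T := fun x => Iff.rfl
  have hInv : GpLn.Rank.Inv φ T' := by
    intro a w hw
    exact hT a.1 a.2 _ hw
  have hcard : (Nat.card A : ZMod 3) ≠ 0 := by
    intro h
    exact hA ((ZMod.natCast_eq_zero_iff _ _).1 h)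
  obtain ⟨W', hW', hcompl⟩ := GpLn.Rank.exists_compl φ hcard T' hInv
  let W : Subgroup V :=
    { carrier := {x | ∃ h : x ∈ E, (Additive.ofMul (⟨x, h⟩ : E) : Additive E) ∈ W'}
      one_mem' := ⟨E.one_mem, W'.zero_mem⟩
      mul_mem' := by
        rintro a b ⟨ha, ha'⟩ ⟨hb, hb'⟩
        exact ⟨E.mul_mem ha hb, W'.add_mem ha' hb'⟩
      inv_mem' := by
        rintro a ⟨ha, ha'⟩
        exact ⟨E.inv_mem ha, W'.neg_mem ha'⟩ }
  refine ⟨W, fun x hx => hx.1, ?_, ?_, ?_⟩
  · rintro a ha x ⟨hx, hx'⟩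
    exact ⟨hE a ha x hx, hW' ⟨a, ha⟩ _ hx'⟩
  · rintro x ⟨hx, hx'⟩ hxT
    have h1 := (Submodule.disjoint_def.1 hcompl.disjoint) _ ((hT' ⟨x, hx⟩).2 hxT) hx'
    exact congrArg (fun y : Additive E => ((Additive.toMul y : E) : V)) h1
  · intro x hx
    have h1 : (Additive.ofMul (⟨x, hx⟩ : E) : Additive E) ∈ T' ⊔ W' := by
      rw [hcompl.sup_eq_top]; trivial
    obtain ⟨t, ht, w, hw, htw⟩ := Submodule.mem_sup.1 h1
    refine ⟨(Additive.toMul t : E), ht, (Additive.toMul w : E), ⟨(Additive.toMul w).2, hw⟩, ?_⟩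
    exact (congrArg (fun y : Additive E => ((Additive.toMul y : E) : V)) htw).symm

theorem exists_index_step {H : Subgroup V} {n : ℕ} (hH : H.index ∣ 3 ^ (n + 1)) :
    ∃ x : V, (zpowers x ⊔ H).index ∣ 3 ^ n := by
  by_cases h : H = ⊤
  · refine ⟨1, ?_⟩
    rw [h, sup_top_eq, Subgroup.index_top]
    exact one_dvd _
  · obtain ⟨x, hx⟩ : ∃ x, x ∉ H := by
      by_contra hcon
      push Not at hcon
      exact h (by rw [eq_top_iff]; intro x _; exact hcon x)
    refine ⟨x, ?_⟩
    set K := zpowers x ⊔ H with hK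
    have h1 : H.relIndex K * K.index = H.index := Subgroup.relIndex_mul_index le_sup_right
    have h2 : H.relIndex K ≠ 1 := by
      intro h2
      rw [Subgroup.relIndex_eq_one] at h2
      exact hx (h2 ((le_sup_left : zpowers x ≤ K) (Subgroup.mem_zpowers x)))
    have h3 : H.relIndex K ∣ 3 ^ (n + 1) := (Dvd.intro _ h1).trans hH
    obtain ⟨j, hj, hj2⟩ := (Nat.dvd_prime_pow Nat.prime_three).1 h3
    have hj0 : j ≠ 0 := by
      rintro rfl
      exact h2 (by rw [hj2, pow_zero])
    have h4 : 3 * K.index ∣ 3 ^ (n + 1) := by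
      refine (Nat.mul_dvd_mul_right ?_ K.index).trans (h1 ▸ hH : H.relIndex K * K.index ∣ 3 ^ (n + 1))
      rw [hj2]
      exact dvd_pow_self 3 hj0
    rw [pow_succ, mul_comm (3 ^ n)] at h4
    exact Nat.dvd_of_mul_dvd_mul_left (by norm_num) h4

theorem frattini (hV : IsPGroup 3 V) {H : Subgroup V} (h : H ⊔ (powMonoidHom 3 : V →* V).range = ⊤) :
    H = ⊤ := by
  have h1 : ∀ n : ℕ, ∀ x : V, ∃ a ∈ H, ∃ y : V, x = a * y ^ 3 ^ n := by
    intro n
    induction n with
    | zero => exact fun x => ⟨1, H.one_mem, x, by simp⟩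
    | succ n ih =>
      intro x
      obtain ⟨a, ha, y, rfl⟩ := ih x
      have h2 : y ∈ H ⊔ (powMonoidHom 3 : V →* V).range := by rw [h]; trivial
      obtain ⟨b, hb, c, ⟨d, rfl⟩, rfl⟩ := Subgroup.mem_sup.1 h2
      refine ⟨a * b ^ 3 ^ n, H.mul_mem ha (H.pow_mem hb _), d, ?_⟩
      rw [powMonoidHom_apply, mul_pow, ← pow_mul, ← pow_succ', mul_assoc]
  obtain ⟨n, hn⟩ := hV.exists_card_eq
  rw [eq_top_iff]
  intro x _
  obtain ⟨a, ha, y, rfl⟩ := h1 n x
  rw [← hn, pow_card_eq_one', mul_one]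
  exact ha

theorem card_ker_ge (hV : IsPGroup 3 V) (hgen : ∀ x y : V, Subgroup.closure {x, y} ≠ ⊤) :
    27 ≤ Nat.card (powMonoidHom 3 : V →* V).ker := by
  have h1 : (powMonoidHom 3 : V →* V).range.index = Nat.card (powMonoidHom 3 : V →* V).ker := by
    have h2 := (powMonoidHom 3 : V →* V).range.card_mul_index
    have h3 := (powMonoidHom 3 : V →* V).ker.card_mul_index
    rw [Subgroup.index_ker] at h3
    have h4 : 0 < Nat.card (powMonoidHom 3 : V →* V).range := Nat.card_pos
    rw [← h3, mul_comm (Nat.card (powMonoidHom 3 : V →* V).ker)] at h2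
    exact Nat.eq_of_mul_eq_mul_left h4 h2
  rw [← h1]
  by_contra hlt
  push Not at hlt
  obtain ⟨n, hn⟩ := hV.exists_card_eq
  have h2 : (powMonoidHom 3 : V →* V).range.index ∣ 3 ^ n := hn ▸ Subgroup.index_dvd_card _
  obtain ⟨j, hj, hj2⟩ := (Nat.dvd_prime_pow Nat.prime_three).1 h2
  have hj3 : j ≤ 2 := by
    by_contra hcon
    push Not at hcon
    have : 3 ^ 3 ≤ 3 ^ j := Nat.pow_le_pow_right (by norm_num) hcon
    rw [hj2] at hlt
    omega
  have h3 : (powMonoidHom 3 : V →* V).range.index ∣ 3 ^ (1 + 1) := by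
    rw [hj2]
    exact pow_dvd_pow 3 hj3
  obtain ⟨x, hx⟩ := exists_index_step h3
  have hx' : (zpowers x ⊔ (powMonoidHom 3 : V →* V).range).index ∣ 3 ^ (0 + 1) := hx
  obtain ⟨y, hy⟩ := exists_index_step hx'
  rw [pow_zero, Nat.dvd_one, Subgroup.index_eq_one, ← sup_assoc] at hy
  have h4 := frattini hV hy
  apply hgen y x
  rw [← h4, ← Set.singleton_union, Subgroup.closure_union, Subgroup.zpowers_eq_closure,
    Subgroup.zpowers_eq_closure]

/-- `W` invariant elementary, `Z` cyclic of index nine, `W ∩ Z = 1`, `W` of order at least nine. -/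
theorem good_of_inf (hV : IsPGroup 3 V) {A : Subgroup (MulAut V)} (hA : ¬ 3 ∣ Nat.card A) {W : Subgroup V}
    (hinv : ∀ a ∈ A, ∀ w ∈ W, a w ∈ W) (hW9 : 9 ≤ Nat.card W) (hW3 : ∀ w ∈ W, w ^ 3 = 1)
    {x0 : V} (hidx : (zpowers x0).index = 9) (hinf : ∀ x ∈ W, x ∈ zpowers x0 → x = 1) : Good A := by
  have hdis : W ⊓ zpowers x0 = ⊥ := by
    rw [Subgroup.eq_bot_iff_forall]
    exact fun x hx => hinf x hx.1 hx.2
  have h1 : (zpowers x0).relIndex W = Nat.card W := by
    rw [← Subgroup.inf_relIndex_right, inf_comm, hdis, Subgroup.relIndex_bot_left]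
  have h2 : Nat.card W ∣ 9 := by
    rw [← h1, ← hidx]
    exact Subgroup.relIndex_dvd_index_of_normal _ _
  have h3 : Nat.card W = 9 := le_antisymm (Nat.le_of_dvd (by norm_num) h2) hW9
  refine core hV hA hinv h3 hW3 (x0 := x0) ?_
  have hcomp : Subgroup.IsComplement' W (zpowers x0) := by
    apply Subgroup.isComplement'_of_card_mul_and_disjoint
    · rw [h3, ← hidx, mul_comm]
      exact (zpowers x0).card_mul_index
    · rw [disjoint_iff, hdis]
  intro y
  have h4 : y ∈ W ⊔ zpowers x0 := by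
    rw [hcomp.sup_eq_top]; trivial
  obtain ⟨w, hw, z, ⟨n, rfl⟩, rfl⟩ := Subgroup.mem_sup.1 h4
  exact ⟨n, by simpa using hw⟩

theorem card_le_three {x0 : V} {U : Subgroup V} (hU : ∀ x ∈ U, x ^ 3 = 1) (hUz : U ≤ zpowers x0) :
    Nat.card U ≤ 3 := by
  classical
  have := Fintype.ofFinite (zpowers x0)
  have h1 := IsCyclic.card_pow_eq_one_le (α := zpowers x0) (n := 3) (by norm_num)
  refine le_trans ?_ h1
  have h2 : Nat.card U ≤
      Nat.card {a : zpowers x0 // a ∈ (Finset.univ.filter fun a : zpowers x0 => a ^ 3 = 1)} := by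
    refine Nat.card_le_card_of_injective (fun x => ⟨⟨x.1, hUz x.2⟩, ?_⟩) ?_
    · rw [Finset.mem_filter]
      exact ⟨Finset.mem_univ _, Subtype.ext (hU x.1 x.2)⟩
    · intro x y hxy
      apply Subtype.ext
      exact congrArg (fun z => ((z : {a : zpowers x0 // a ∈ (Finset.univ.filter fun a : zpowers x0 =>
        a ^ 3 = 1)}).1 : V)) hxy
  rwa [Nat.card_eq_fintype_card (α := {a : zpowers x0 // _}), Fintype.card_coe] at h2

/-- the case that `V` is not elementary -/
theorem good_of_ne (hV : IsPGroup 3 V) {A : Subgroup (MulAut V)} (hA : ¬ 3 ∣ Nat.card A)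
    {x0 : V} (hidx : (zpowers x0).index = 9) (hcube : ∀ x : V, x ^ 3 ∈ zpowers x0)
    (hker : 27 ≤ Nat.card (powMonoidHom 3 : V →* V).ker) {y1 : V} (hy1 : y1 ^ 3 ≠ 1) : Good A := by
  classical
  have hp : Fact (Nat.Prime 3) := ⟨Nat.prime_three⟩
  set E : Subgroup V := (powMonoidHom 3 : V →* V).ker with hEdef
  have hE3 : ∀ x ∈ E, x ^ 3 = 1 := fun x hx => hx
  have hE : ∀ a ∈ A, ∀ x ∈ E, a x ∈ E := by
    intro a _ x hx
    show a x ^ 3 = 1
    rw [← map_pow, hE3 x hx, map_one]
  set T : Subgroup V := (powMonoidHom 3 : V →* V).range ⊓ E with hTdef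
  have hTE : T ≤ E := inf_le_right
  have hTZ : T ≤ zpowers x0 := by
    rintro x ⟨⟨y, rfl⟩, -⟩
    exact hcube y
  have hTinv : ∀ a ∈ A, ∀ x ∈ T, a x ∈ T := by
    rintro a ha x ⟨⟨y, rfl⟩, hx⟩
    exact ⟨⟨a y, by rw [powMonoidHom_apply, powMonoidHom_apply, map_pow]⟩, hE a ha _ hx⟩
  -- `T` is nontrivial
  have hT1 : T ≠ ⊥ := by
    intro h
    obtain ⟨k, hk⟩ := hV y1
    have h1 : ∀ j, y1 ^ 3 ^ (j + 1) ≠ 1 := by
      intro j
      induction j with
      | zero => simpa using hy1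
      | succ j ih =>
        intro h2
        apply ih
        have h3 : y1 ^ 3 ^ (j + 1) ∈ T := by
          refine ⟨⟨y1 ^ 3 ^ j, ?_⟩, ?_⟩
          · rw [powMonoidHom_apply, ← pow_mul, ← pow_succ]
          · show (y1 ^ 3 ^ (j + 1)) ^ 3 = 1
            rw [← pow_mul, ← pow_succ]
            exact h2
        rw [h, Subgroup.mem_bot] at h3
        exact h3
    have h4 := h1 k
    rw [pow_succ, pow_mul, hk, one_pow] at h4
    exact h4 rfl
  have hTcard : 3 ≤ Nat.card T := by
    obtain ⟨n, hn⟩ := hV.exists_card_eq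
    have h1 : Nat.card T ∣ 3 ^ n := hn ▸ Subgroup.card_subgroup_dvd_card T
    obtain ⟨j, -, hj⟩ := (Nat.dvd_prime_pow Nat.prime_three).1 h1
    have hj0 : j ≠ 0 := by
      rintro rfl
      exact hT1 (Subgroup.eq_bot_of_card_eq T (by rw [hj, pow_zero]))
    rw [hj]
    exact Nat.le_of_dvd (by positivity) (dvd_pow_self 3 hj0)
  -- the elements of order three of `Z` are in `T`
  have hZT : ∀ x ∈ zpowers x0, x ^ 3 = 1 → x ∈ T := by
    have hTZ' : T ≤ zpowers x0 ⊓ E := le_inf hTZ hTE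
    have hle : Nat.card (zpowers x0 ⊓ E : Subgroup V) ≤ 3 :=
      card_le_three (fun x hx => hx.2) inf_le_left
    have heq := Subgroup.eq_of_le_of_card_ge hTZ' (hle.trans hTcard)
    intro x hx hx3
    rw [heq]
    exact ⟨hx, hx3⟩
  have hTcard' : Nat.card T ≤ 3 := card_le_three (fun x hx => hx.2) hTZ
  obtain ⟨W, hWE, hWinv, hWT, hsum⟩ := exists_complement hA hE3 hE hTinv
  refine good_of_inf hV hA hWinv ?_ (fun w hw => hE3 w (hWE hw)) hidx fun x hx hxz => hWT x hx
    (hZT x hxz (hE3 x (hWE hx)))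
  -- `|W| ≥ 9`
  have h1 : Nat.card E ≤ Nat.card (T × W) := by
    refine Nat.card_le_card_of_surjective (β := E)
      (fun q => (⟨q.1.1 * q.2.1, E.mul_mem (hTE q.1.2) (hWE q.2.2)⟩ : E)) ?_
    intro x
    obtain ⟨t, ht, w, hw, htw⟩ := hsum x.1 x.2
    exact ⟨⟨⟨t, ht⟩, ⟨w, hw⟩⟩, Subtype.ext htw.symm⟩
  rw [Nat.card_prod] at h1
  by_contra hcon
  push Not at hcon
  have h2 : Nat.card T * Nat.card W ≤ 3 * 8 := Nat.mul_le_mul hTcard' (by omega)
  omega

/-- elementary case with an invariant line -/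
theorem good_of_line (hV : IsPGroup 3 V) {A : Subgroup (MulAut V)} (hA : ¬ 3 ∣ Nat.card A)
    (h3 : ∀ x : V, x ^ 3 = 1) (hV27 : Nat.card V = 27) {x0 : V} (hx0 : x0 ≠ 1)
    (hinv : ∀ a ∈ A, a x0 ∈ zpowers x0) : Good A := by
  have hTinv : ∀ a ∈ A, ∀ x ∈ zpowers x0, a x ∈ zpowers x0 := by
    rintro a ha x ⟨n, rfl⟩
    simp only [map_zpow]
    exact Subgroup.zpow_mem _ (hinv a ha) n
  obtain ⟨W, -, hWinv, hWT, hsum⟩ := exists_complement (E := ⊤) hA (fun x _ => h3 x) (fun _ _ _ _ => trivial)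
    hTinv
  have hT3 : Nat.card (zpowers x0) = 3 := by
    rw [Nat.card_zpowers]
    exact orderOf_eq_prime (h3 x0) hx0
  have hidx : (zpowers x0).index = 9 := by
    have h1 := (zpowers x0).card_mul_index
    rw [hT3, hV27] at h1
    omega
  refine good_of_inf hV hA hWinv ?_ (fun w _ => h3 w) hidx hWT
  have h1 : Nat.card V ≤ Nat.card (zpowers x0 × W) := by
    refine Nat.card_le_card_of_surjective (β := V) (fun q => (q.1.1 * q.2.1 : V)) ?_
    intro x
    obtain ⟨t, ht, w, hw, htw⟩ := hsum x trivial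
    exact ⟨⟨⟨t, ht⟩, ⟨w, hw⟩⟩, htw.symm⟩
  rw [Nat.card_prod, hT3, hV27] at h1
  omega

/-- Fixed points of an automorphism of order thirteen on an invariant subgroup. -/
theorem card_modEq {s : MulAut V} (hs : s ^ 13 = 1) {U : Subgroup V} (hU : ∀ x ∈ U, s x ∈ U) :
    Nat.card U ≡ Nat.card {x : U // s x = x} [MOD 13] := by
  classical
  have hp : Fact (Nat.Prime 13) := ⟨by norm_num⟩
  have := Fintype.ofFinite U
  let f : Function.End U := fun x => ⟨s x, hU x x.2⟩
  have hf : ∀ n : ℕ, ∀ x : U, ((f ^ n) x : V) = (s ^ n) x := by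
    intro n
    induction n with
    | zero => exact fun x => rfl
    | succ n ih =>
      intro x
      rw [pow_succ', pow_succ']
      show s ((f ^ n) x : V) = s ((s ^ n) x)
      rw [ih]
  have hf13 : f ^ 13 ^ 1 = 1 := by
    funext x
    apply Subtype.ext
    rw [hf, pow_one, hs]
    rfl
  have h1 := Equiv.Perm.card_fixedPoints_modEq (p := 13) hf13
  rw [← Nat.card_eq_fintype_card, ← Nat.card_eq_fintype_card] at h1
  refine h1.trans ?_
  have h2 : Nat.card (Function.fixedPoints f) = Nat.card {x : U // s x = x} := by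
    apply Nat.card_congr
    exact Equiv.subtypeEquivRight fun x => by
      constructor
      · intro h
        exact congrArg Subtype.val (h : f x = x)
      · intro h
        exact Subtype.ext h
  rw [h2]

theorem fpf_of_thirteen {s : MulAut V} (hs : s ^ 13 = 1) (hs1 : s ≠ 1) (hV27 : Nat.card V = 27) :
    ∀ x, s x = x → x = 1 := by
  let F : Subgroup V :=
    { carrier := {x | s x = x}
      one_mem' := map_one s
      mul_mem' := by
        intro a b ha hb
        rw [Set.mem_ofPred_eq] at ha hb ⊢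
        rw [map_mul, ha, hb]
      inv_mem' := by
        intro a ha
        rw [Set.mem_ofPred_eq] at ha ⊢
        rw [map_inv, ha] }
  have h1 := card_modEq hs (U := (⊤ : Subgroup V)) fun _ _ => trivial
  have h2 : Nat.card {x : (⊤ : Subgroup V) // s x = x} = Nat.card F :=
    Nat.card_congr
      { toFun := fun x => ⟨x.1.1, x.2⟩
        invFun := fun x => ⟨⟨x.1, trivial⟩, x.2⟩
        left_inv := fun x => rfl
        right_inv := fun x => rfl }
  rw [h2, Subgroup.card_top, hV27] at h1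
  have h3 : Nat.card F ∣ 27 := hV27 ▸ Subgroup.card_subgroup_dvd_card F
  have h4 : Nat.card F ∈ ({1, 3, 9, 27} : Finset ℕ) := by
    have : Nat.card F ∈ Nat.divisors 27 := by simp [h3]
    revert this
    have h5 : Nat.divisors 27 = {1, 3, 9, 27} := by decide
    rw [h5]
    exact id
  have h5 : Nat.card F = 1 := by
    simp only [Finset.mem_insert, Finset.mem_singleton] at h4
    rcases h4 with h | h | h | h
    · exact h
    · rw [h] at h1; exact absurd h1 (by decide)
    · rw [h] at h1; exact absurd h1 (by decide)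
    · exfalso
      have h6 : F = ⊤ := by
        apply Subgroup.eq_top_of_card_eq
        rw [h, hV27]
      apply hs1
      ext x
      have : x ∈ F := by rw [h6]; trivial
      exact this
  have h6 : F = ⊥ := Subgroup.eq_bot_of_card_eq F h5
  intro x hx
  have : x ∈ F := hx
  rwa [h6, Subgroup.mem_bot] at this

/-- two large subgroups intersect -/
theorem exists_inter (hV27 : Nat.card V = 27) {U : Subgroup V} (hU : 9 ≤ Nat.card U) (s : MulAut V) :
    ∃ b ∈ U, s b ∈ U ∧ b ≠ 1 := by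
  by_contra hcon
  push Not at hcon
  have hinj : Function.Injective (fun q : U × U => (q.1.1 * (s q.2.1)⁻¹ : V)) := by
    rintro ⟨a, b⟩ ⟨a', b'⟩ h
    have h1 : (a : V) * (s b)⁻¹ = a' * (s b')⁻¹ := h
    have h2 : s ((b : V) * (b' : V)⁻¹) = a * (a' : V)⁻¹ := by
      rw [map_mul, map_inv]
      have h3 : (a : V) = a' * (s b')⁻¹ * s b := by rw [← h1]; group
      rw [h3]
      calc s b * (s b')⁻¹ = (a' : V) * (a' : V)⁻¹ * (s b * (s b')⁻¹) := by rw [mul_inv_cancel, one_mul]
        _ = _ := by simp only [mul_comm, mul_left_comm, mul_assoc]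
    have h3 := hcon ((b : V) * (b' : V)⁻¹) (U.mul_mem b.2 (U.inv_mem b'.2))
      (by rw [h2]; exact U.mul_mem a.2 (U.inv_mem a'.2))
    rw [h3, map_one] at h2
    have h4 : (b : V) = b' := mul_inv_eq_one.1 h3
    have h5 : (a : V) = a' := mul_inv_eq_one.1 h2.symm
    exact Prod.ext (Subtype.ext h5) (Subtype.ext h4)
  have h1 := Nat.card_le_card_of_injective _ hinj
  rw [Nat.card_prod, hV27] at h1
  nlinarith

/-- no nontrivial stabilizers in the presence of an element of order thirteen -/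
theorem stb_eq_bot {A : Subgroup (MulAut V)} (h3 : ∀ x : V, x ^ 3 = 1)
    (hV27 : Nat.card V = 27) (hA : Nat.card A ∣ 416) (h13 : 13 ∣ Nat.card A) {v : V} (hv : v ≠ 1) :
    Stb A v = ⊥ := by
  classical
  have hp : Fact (Nat.Prime 13) := ⟨by norm_num⟩
  obtain ⟨P⟩ : Nonempty (Sylow 13 A) := inferInstance
  have hP1 : (P : Subgroup A) ≠ ⊥ := by
    intro h
    have h1 := P.dvd_card_of_dvd_card h13
    rw [h, Subgroup.card_bot] at h1
    omega
  have hP13 : Nat.card (P : Subgroup A) = 13 := by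
    obtain ⟨n, hn⟩ := P.isPGroup'.exists_card_eq
    have h1 : 13 ^ n ∣ 416 := (hn ▸ Subgroup.card_subgroup_dvd_card _ : 13 ^ n ∣ Nat.card A).trans hA
    have hn1 : n < 2 := by
      by_contra hcon
      push Not at hcon
      have h2 : 13 ^ 2 ∣ 416 := (pow_dvd_pow 13 hcon).trans h1
      norm_num at h2
    interval_cases n
    · exact absurd (Subgroup.eq_bot_of_card_eq _ (by rw [hn, pow_zero])) hP1
    · rw [hn, pow_one]
  have hPn : (P : Subgroup A).Normal := by
    have h1 : (P : Subgroup A).index ∣ 32 := by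
      have h2 : Nat.card (P : Subgroup A) * (P : Subgroup A).index = Nat.card A :=
        (P : Subgroup A).card_mul_index
      rw [hP13] at h2
      rw [← h2] at hA
      exact Nat.dvd_of_mul_dvd_mul_left (by norm_num : 0 < 13) hA
    have h2 : Nat.card (Sylow 13 A) ∣ 32 := P.card_dvd_index.trans h1
    have h3 := card_sylow_modEq_one 13 A
    have h4 : Nat.card (Sylow 13 A) = 1 := by
      have h5 : Nat.card (Sylow 13 A) ∈ Nat.divisors 32 := by simp [h2]
      have h6 : Nat.divisors 32 = {1, 2, 4, 8, 16, 32} := by decide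
      rw [h6] at h5
      simp only [Finset.mem_insert, Finset.mem_singleton] at h5
      rcases h5 with h | h | h | h | h | h
      · exact h
      all_goals
        rw [h] at h3
        exact absurd h3 (by decide)
    have h5 : Subsingleton (Sylow 13 A) := by
      rw [Nat.card_eq_one_iff_unique] at h4
      exact h4.1
    exact Sylow.normal_of_subsingleton P
  obtain ⟨s, hsP, hs1⟩ := exists_ne_one_of_ne_bot hP1
  have hpow : ∀ x ∈ (P : Subgroup A), (x : MulAut V) ^ 13 = 1 := by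
    intro x hx
    have h1 := pow_card_eq_one' (x := (⟨x, hx⟩ : (P : Subgroup A)))
    rw [hP13] at h1
    exact congrArg (fun y : (P : Subgroup A) => ((y : A) : MulAut V)) h1
  by_contra hbot
  -- an element of prime order of the stabilizer
  have hc1 : Nat.card (Stb A v) ≠ 1 := fun h => hbot (Subgroup.eq_bot_of_card_eq _ h)
  obtain ⟨q, hq, hqd⟩ := Nat.exists_prime_and_dvd hc1
  have hqF : Fact q.Prime := ⟨hq⟩
  obtain ⟨t', ht'⟩ := exists_prime_orderOf_dvd_card' q hqd
  have htq : orderOf (t' : MulAut V) = q := by rw [Subgroup.orderOf_coe]; exact ht'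
  obtain ⟨t, ht⟩ : ∃ t : MulAut V, t = t' := ⟨_, rfl⟩
  have htA : t ∈ A := ht ▸ t'.2.1
  have htv : t v = v := ht ▸ t'.2.2
  rw [← ht] at htq
  have ht1 : t ≠ 1 := by
    intro h
    rw [h, orderOf_one] at htq
    exact hq.one_lt.ne htq
  have hq2 : q ∣ 416 := by
    refine (hqd.trans (Subgroup.card_dvd_of_le ?_)).trans hA
    exact fun x hx => hx.1
  have hq3 : q = 2 ∨ q = 13 := by
    have h1 : q ∣ 2 ^ 5 * 13 := by norm_num; exact hq2
    rcases hq.dvd_mul.1 h1 with h | h
    · exact Or.inl ((Nat.prime_dvd_prime_iff_eq hq Nat.prime_two).1 (hq.dvd_of_dvd_pow h))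
    · exact Or.inr ((Nat.prime_dvd_prime_iff_eq hq (by norm_num)).1 h)
  rcases hq3 with rfl | rfl
  swap
  · have h1 : t ^ 13 = 1 := by rw [← htq]; exact pow_orderOf_eq_one t
    exact hv (fpf_of_thirteen h1 ht1 hV27 v htv)
  have ht2 : t * t = 1 := by
    rw [← pow_two, ← htq]; exact pow_orderOf_eq_one t
  have htinv : t⁻¹ = t := inv_eq_of_mul_eq_one_left ht2
  have htt : ∀ x, t (t x) = x := by
    intro x
    rw [← MulAut.mul_apply, ht2, MulAut.one_apply]
  -- the commutator
  obtain ⟨c, hc⟩ : ∃ c : A, c = s * (⟨t, htA⟩ * s⁻¹ * (⟨t, htA⟩ : A)⁻¹) := ⟨_, rfl⟩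
  have hcP : c ∈ (P : Subgroup A) := by
    rw [hc]
    exact (P : Subgroup A).mul_mem hsP (hPn.conj_mem _ ((P : Subgroup A).inv_mem hsP) _)
  have hcval : (c : MulAut V) = s * (t * (s : MulAut V)⁻¹ * t⁻¹) := by rw [hc]; rfl
  -- the fixed points and the inverted elements
  let C : Subgroup V :=
    { carrier := {x | t x = x}
      one_mem' := map_one t
      mul_mem' := by
        intro a b ha hb
        rw [Set.mem_ofPred_eq] at ha hb ⊢
        rw [map_mul, ha, hb]
      inv_mem' := by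
        intro a ha
        rw [Set.mem_ofPred_eq] at ha ⊢
        rw [map_inv, ha] }
  let D : Subgroup V :=
    { carrier := {x | t x = x⁻¹}
      one_mem' := by rw [Set.mem_ofPred_eq, map_one, inv_one]
      mul_mem' := by
        intro a b ha hb
        rw [Set.mem_ofPred_eq] at ha hb ⊢
        rw [map_mul, ha, hb, mul_inv]
      inv_mem' := by
        intro a ha
        rw [Set.mem_ofPred_eq] at ha ⊢
        rw [map_inv, ha] }
  have hCD : 27 ≤ Nat.card C * Nat.card D := by
    rw [← hV27, ← Nat.card_prod]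
    refine Nat.card_le_card_of_injective (fun x : V => ((⟨x * t x, ?_⟩, ⟨x * (t x)⁻¹, ?_⟩) : C × D)) ?_
    · show t (x * t x) = x * t x
      rw [map_mul, htt, mul_comm]
    · show t (x * (t x)⁻¹) = (x * (t x)⁻¹)⁻¹
      rw [map_mul, map_inv, htt, mul_inv_rev, inv_inv]
    · intro x y hxy
      have h1 : x * t x = y * t y := congrArg (fun z : C × D => (z.1 : V)) hxy
      have h2 : x * (t x)⁻¹ = y * (t y)⁻¹ := congrArg (fun z : C × D => (z.2 : V)) hxy
      have h4 : x * x = y * y := by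
        have h5 : (x * t x) * (x * (t x)⁻¹) = (y * t y) * (y * (t y)⁻¹) := by rw [h1, h2]
        have h6 : ∀ z : V, (z * t z) * (z * (t z)⁻¹) = z * z := by
          intro z
          rw [mul_mul_mul_comm, mul_inv_cancel, mul_one]
        rwa [h6, h6] at h5
      have h7 : ∀ z : V, z = (z * z)⁻¹ := by
        intro z
        have := h3 z
        rw [pow_succ, pow_two] at this
        exact eq_inv_of_mul_eq_one_right this
      rw [h7 x, h4, ← h7 y]
  have hdiv : ∀ U : Subgroup V, Nat.card U ∈ ({1, 3, 9, 27} : Finset ℕ) := by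
    intro U
    have h3 : Nat.card U ∣ 27 := hV27 ▸ Subgroup.card_subgroup_dvd_card U
    have : Nat.card U ∈ Nat.divisors 27 := by simp [h3]
    revert this
    have h5 : Nat.divisors 27 = {1, 3, 9, 27} := by decide
    rw [h5]
    exact id
  have hfix : ∃ u, u ≠ 1 ∧ (c : MulAut V) u = u := by
    have h9 : 9 ≤ Nat.card C ∨ 9 ≤ Nat.card D := by
      have h1 := hdiv C
      have h2 := hdiv D
      simp only [Finset.mem_insert, Finset.mem_singleton] at h1 h2
      by_contra hcon
      push Not at hcon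
      have h4 : Nat.card C ≤ 3 := by omega
      have h5 : Nat.card D ≤ 3 := by omega
      nlinarith
    rcases h9 with h9 | h9
    · obtain ⟨b, hb, hsb, hb1⟩ := exists_inter hV27 h9 s.1
      refine ⟨s.1 b, fun h => hb1 (s.1.injective (h.trans (map_one _).symm)), ?_⟩
      rw [hcval, MulAut.mul_apply, MulAut.mul_apply, MulAut.mul_apply, htinv]
      rw [show t (s.1 b) = s.1 b from hsb, MulAut.inv_apply_self, show t b = b from hb]
    · obtain ⟨b, hb, hsb, hb1⟩ := exists_inter hV27 h9 s.1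
      refine ⟨s.1 b, fun h => hb1 (s.1.injective (h.trans (map_one _).symm)), ?_⟩
      rw [hcval, MulAut.mul_apply, MulAut.mul_apply, MulAut.mul_apply, htinv]
      rw [show t (s.1 b) = (s.1 b)⁻¹ from hsb, map_inv, MulAut.inv_apply_self, map_inv,
        show t b = b⁻¹ from hb, inv_inv]
  have hc1' : (c : MulAut V) = 1 := by
    by_contra hne
    obtain ⟨u, hu, hcu⟩ := hfix
    exact hu (fpf_of_thirteen (hpow c hcP) hne hV27 u hcu)
  -- `s` and `t` commute
  have hcomm : ∀ x, t (s.1 x) = s.1 (t x) := by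
    intro x
    have h1 : s.1 * t = t * s.1 := by
      have h2 : s.1 * (t * (s : MulAut V)⁻¹ * t⁻¹) = 1 := by rw [← hcval, hc1']
      have h4 : s.1 * t * (t * s.1)⁻¹ = 1 := by rw [← h2]; group
      exact mul_inv_eq_one.1 h4
    rw [← MulAut.mul_apply, ← h1, MulAut.mul_apply]
  have hsv : ∀ x, s.1 x = x → x = 1 :=
    fpf_of_thirteen (hpow s hsP) (fun h => hs1 (Subtype.ext h)) hV27
  have hmod := card_modEq (hpow s hsP) (U := C) (fun x hx => by
    show t (s.1 x) = s.1 x
    rw [hcomm, show t x = x from hx])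
  have h1 : Nat.card {x : C // s.1 x = x} = 1 := by
    rw [Nat.card_eq_one_iff_unique]
    refine ⟨⟨fun a b => ?_⟩, ⟨⟨1, map_one _⟩⟩⟩
    apply Subtype.ext
    apply Subtype.ext
    rw [hsv _ a.2, hsv _ b.2]
  rw [h1] at hmod
  have h2 := hdiv C
  simp only [Finset.mem_insert, Finset.mem_singleton] at h2
  have hvC : v ∈ C := htv
  rcases h2 with h | h | h | h
  · have := Subgroup.eq_bot_of_card_eq C h
    rw [this, Subgroup.mem_bot] at hvC
    exact hv hvC
  · rw [h] at hmod; exact absurd hmod (by decide)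
  · rw [h] at hmod; exact absurd hmod (by decide)
  · apply ht1
    ext x
    have h6 : C = ⊤ := by
      apply Subgroup.eq_top_of_card_eq
      rw [h, hV27]
    have : x ∈ C := by rw [h6]; trivial
    exact this

/-- the set of subgroups of order three -/
def Line (V : Type*) [CommGroup V] : Type _ := {H : Subgroup V // Nat.card H = 3}

noncomputable instance instFiniteLine : Finite (Line V) := by
  unfold Line
  infer_instance

/-- A group of automorphisms acts on the set of subgroups of order three. -/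
noncomputable instance instMulActionLine (A : Subgroup (MulAut V)) : MulAction A (Line V) where
  smul a H := ⟨H.1.map (a.1 : V ≃* V).toMonoidHom, by
    rw [Nat.card_congr (H.1.equivMapOfInjective _ (a.1 : V ≃* V).injective).symm.toEquiv]
    exact H.2⟩
  one_smul H := by
    apply Subtype.ext
    exact Subgroup.map_id (H.1 : Subgroup V)
  mul_smul a b H := by
    apply Subtype.ext
    exact (Subgroup.map_map (H.1 : Subgroup V) (a.1 : V ≃* V).toMonoidHom (b.1 : V ≃* V).toMonoidHom).symm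

theorem smul_val (A : Subgroup (MulAut V)) (a : A) (H : Line V) :
    (a • H).1 = H.1.map (a.1 : V ≃* V).toMonoidHom := rfl

theorem card_line (h3 : ∀ x : V, x ^ 3 = 1) (hV27 : Nat.card V = 27) : Nat.card (Line V) = 13 := by
  classical
  have hp : Fact (Nat.Prime 3) := ⟨Nat.prime_three⟩
  have hz : ∀ (H : Line V) (x : H.1), x ≠ 1 → H.1 = zpowers (x : V) := by
    intro H x hx
    symm
    apply Subgroup.eq_of_le_of_card_ge
    · rw [Subgroup.zpowers_le]; exact x.2
    · rw [H.2, Nat.card_zpowers, orderOf_eq_prime (h3 x) (fun h => hx (Subtype.ext h))]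
  have h1 : Nat.card (Σ H : Line V, {x : H.1 // x ≠ 1}) = Nat.card {x : V // x ≠ 1} := by
    refine Nat.card_congr (Equiv.ofBijective
      (fun p : (Σ H : Line V, {x : H.1 // x ≠ 1}) => (⟨p.2.1.1, fun h => p.2.2 (Subtype.ext h)⟩ : {x : V // x ≠ 1}))
      ⟨?_, ?_⟩)
    · rintro ⟨H, x⟩ ⟨H', x'⟩ h
      have h2 : (x.1.1 : V) = x'.1.1 := congrArg (fun y : {x : V // x ≠ 1} => (y : V)) h
      have h4 : H = H' := by
        apply Subtype.ext
        rw [hz H x.1 x.2, hz H' x'.1 x'.2, h2]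
      subst h4
      have h5 : x = x' := Subtype.ext (Subtype.ext h2)
      rw [h5]
    · rintro ⟨x, hx⟩
      refine ⟨⟨⟨zpowers x, ?_⟩, ⟨⟨x, Subgroup.mem_zpowers x⟩, fun h => hx (congrArg Subtype.val h)⟩⟩, rfl⟩
      rw [Nat.card_zpowers, orderOf_eq_prime (h3 x) hx]
  have h2 : Nat.card (Σ H : Line V, {x : H.1 // x ≠ 1}) = Nat.card (Line V) * 2 := by
    have := Fintype.ofFinite (Line V)
    rw [Nat.card_sigma]
    have h5 : ∀ H : Line V, Nat.card {x : H.1 // x ≠ 1} = 2 := by
      intro H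
      have := Fintype.ofFinite H.1
      rw [Nat.card_eq_fintype_card, Fintype.card_subtype_compl, Fintype.card_subtype_eq,
        ← Nat.card_eq_fintype_card, H.2]
    rw [Finset.sum_congr rfl fun H _ => h5 H, Finset.sum_const, Finset.card_univ, smul_eq_mul,
      Nat.card_eq_fintype_card]
  have h4 : Nat.card {x : V // x ≠ 1} = 26 := by
    have := Fintype.ofFinite V
    rw [Nat.card_eq_fintype_card, Fintype.card_subtype_compl, Fintype.card_subtype_eq,
      ← Nat.card_eq_fintype_card, hV27]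
  rw [h2, h4] at h1
  omega

theorem exists_line {A : Subgroup (MulAut V)} (hA : IsPGroup 2 A) (h3 : ∀ x : V, x ^ 3 = 1)
    (hV27 : Nat.card V = 27) : ∃ x0 : V, x0 ≠ 1 ∧ ∀ a ∈ A, a x0 ∈ zpowers x0 := by
  have hp : Fact (Nat.Prime 3) := ⟨Nat.prime_three⟩
  have hp2 : Fact (Nat.Prime 2) := ⟨Nat.prime_two⟩
  obtain ⟨H, hH⟩ := hA.nonempty_fixed_point_of_prime_not_dvd_card (Line V) (by
    rw [card_line h3 hV27]; norm_num)
  have hHb : H.1 ≠ ⊥ := by
    intro h
    have := H.2
    rw [h, Subgroup.card_bot] at this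
    omega
  obtain ⟨x0, hx0, hx1⟩ := exists_ne_one_of_ne_bot hHb
  refine ⟨x0, hx1, fun a ha => ?_⟩
  have h1 : H.1 = zpowers x0 := by
    symm
    apply Subgroup.eq_of_le_of_card_ge
    · rw [Subgroup.zpowers_le]; exact hx0
    · rw [H.2, Nat.card_zpowers, orderOf_eq_prime (h3 x0) hx1]
  rw [← h1]
  have h2 := congrArg Subtype.val (hH ⟨a, ha⟩)
  rw [smul_val] at h2
  rw [← h2]
  exact ⟨x0, hx0, rfl⟩

/-- the elementary case -/
theorem good_of_elem (hV : IsPGroup 3 V) {A : Subgroup (MulAut V)} (hA : ¬ 3 ∣ Nat.card A)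
    (h3 : ∀ x : V, x ^ 3 = 1) (hV27 : Nat.card V = 27) : Good A := by
  have hp2 : Fact (Nat.Prime 2) := ⟨Nat.prime_two⟩
  obtain ⟨E, hE, θ, hθ, -⟩ := H352.L43.exists_theta (A := V) (fun a b => mul_comm a b)
    (fun a => by rw [← h3 a]; rw [pow_succ, pow_two]) hV27
  have h1 : Nat.card A ∣ 11232 := by
    rw [← H352.L43.card_GL33]
    exact Subgroup.card_dvd_of_injective (θ.comp A.subtype) (hθ.comp A.subtype_injective)
  have h2 : Nat.card A ∣ 416 := by
    have h4 : Nat.card A ∣ 27 * 416 := by norm_num; exact h1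
    refine Nat.Coprime.dvd_of_dvd_mul_left ?_ h4
    have h5 : (27 : ℕ) = 3 ^ 3 := by norm_num
    rw [h5]
    exact Nat.Coprime.pow_right _ ((Nat.Prime.coprime_iff_not_dvd Nat.prime_three).2 hA).symm
  by_cases h13 : 13 ∣ Nat.card A
  · obtain ⟨v, hv⟩ : ∃ v : V, v ≠ 1 := by
      have : Nontrivial V := by
        rw [← Finite.one_lt_card_iff_nontrivial, hV27]; norm_num
      exact exists_ne 1
    exact ⟨v, Or.inl (stb_eq_bot h3 hV27 h2 h13 hv)⟩
  · have h4 : Nat.card A ∣ 2 ^ 5 := by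
      have h5 : Nat.card A ∣ 13 * 2 ^ 5 := by norm_num; exact h2
      refine Nat.Coprime.dvd_of_dvd_mul_left ?_ h5
      exact ((Nat.Prime.coprime_iff_not_dvd (by norm_num)).2 h13).symm
    obtain ⟨j, -, hj⟩ := (Nat.dvd_prime_pow Nat.prime_two).1 h4
    have h5 : IsPGroup 2 A := IsPGroup.of_card hj
    obtain ⟨x0, hx0, hinv⟩ := exists_line h5 h3 hV27
    exact good_of_line hV hA h3 hV27 hx0 hinv

/-- **Main result.** A group of order prime to three acting on an abelian 3-group with a cyclic subgroup of index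
nine which is not generated by two elements. -/
theorem good (hV : IsPGroup 3 V) {A : Subgroup (MulAut V)} (hA : ¬ 3 ∣ Nat.card A) {Z : Subgroup V}
    (hZ : IsCyclic Z) (hidx : Z.index = 9) (hgen : ∀ x y : V, Subgroup.closure {x, y} ≠ ⊤) : Good A := by
  obtain ⟨x0, hx0⟩ : ∃ x0, Z = zpowers x0 := by
    obtain ⟨g, hg⟩ := hZ.exists_generator
    refine ⟨g, le_antisymm ?_ ?_⟩
    · intro x hx
      obtain ⟨n, hn⟩ := hg ⟨x, hx⟩
      exact ⟨n, congrArg Subtype.val hn⟩
    · rw [Subgroup.zpowers_le]; exact g.2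
  subst hx0
  have hcube : ∀ x : V, x ^ 3 ∈ zpowers x0 := by
    intro x
    have hq9 : Nat.card (V ⧸ zpowers x0) = 9 := hidx
    set q : V ⧸ zpowers x0 := QuotientGroup.mk x with hq
    have h1 : orderOf q ∣ 3 ^ 2 := by
      have := orderOf_dvd_natCard q
      rw [hq9] at this
      norm_num
      exact this
    obtain ⟨j, hj, hj2⟩ := (Nat.dvd_prime_pow Nat.prime_three).1 h1
    have hj1 : j ≤ 1 := by
      by_contra hcon
      have hj3 : j = 2 := by omega
      subst hj3
      apply hgen x x0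
      have h2 : ∀ r : V ⧸ zpowers x0, r ∈ zpowers q := by
        have h4 : zpowers q = ⊤ := by
          apply Subgroup.eq_top_of_card_eq
          rw [Nat.card_zpowers, hj2, hq9]
          norm_num
        intro r
        rw [h4]; trivial
      rw [eq_top_iff]
      intro y _
      obtain ⟨n, hn⟩ := h2 (QuotientGroup.mk y)
      have h4 : (x ^ n)⁻¹ * y ∈ zpowers x0 := by
        rw [← QuotientGroup.eq]
        exact hn
      have h5 : y = x ^ n * ((x ^ n)⁻¹ * y) := by group
      rw [h5]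
      refine Subgroup.mul_mem _ (Subgroup.zpow_mem _ (Subgroup.subset_closure (Set.mem_insert _ _)) n) ?_
      have h6 : zpowers x0 ≤ Subgroup.closure {x, x0} := by
        rw [Subgroup.zpowers_le]
        exact Subgroup.subset_closure (Set.mem_insert_of_mem _ rfl)
      exact h6 h4
    have h7 : q ^ 3 = 1 := by
      rw [← orderOf_dvd_iff_pow_eq_one, hj2]
      exact (pow_dvd_pow 3 hj1).trans (by norm_num)
    rw [← QuotientGroup.eq_one_iff, QuotientGroup.mk_pow]
    exact h7
  have hker := card_ker_ge hV hgen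
  by_cases h3 : ∀ x : V, x ^ 3 = 1
  · have h1 : Nat.card (zpowers x0) ≤ 3 := by
      rw [Nat.card_zpowers]
      exact Nat.le_of_dvd (by norm_num) (orderOf_dvd_of_pow_eq_one (h3 x0))
    have h2 := (zpowers x0).card_mul_index
    rw [hidx] at h2
    have h4 : Nat.card (powMonoidHom 3 : V →* V).ker ≤ Nat.card V := Subgroup.card_le_card_group _
    exact good_of_elem hV hA h3 (by omega)
  · push Not at h3
    obtain ⟨y1, hy1⟩ := h3
    exact good_of_ne hV hA hidx hcube hker hy1

end Cfsg.Agent.H699.ThreeAct
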